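import Mathlib
import Cfsg.Agent.Base
import Cfsg.Agent.Lib.Lang.GenCl
import Cfsg.Agent.Lib.Stein.SpM

/-! Regular unipotent elements in groups with Eichler transformations. -/

set_option autoImplicit false

open scoped commutatorElement

namespace H37.GenCl

open H63.St H63.St.Eich H37.Gen

section chain

variable {K V : Type*} [Field K] [AddCommGroup V] [Module K V]

variable (K) in
/-- The flag of a sequence. -/
def Fg (b : ℕ → V) (k : ℕ) : Submodule K V := Submodule.span K (b '' Set.Iio k)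

lemma mem_Fg {b : ℕ → V} {j k : ℕ} (h : j < k) : b j ∈ Fg K b k :=
  Submodule.subset_span ⟨j, h, rfl⟩

lemma Fg_mono {b : ℕ → V} {j k : ℕ} (h : j ≤ k) : Fg K b j ≤ Fg K b k :=
  Submodule.span_mono (Set.image_mono (Set.Iio_subset_Iio h))

lemma Fg_le {b : ℕ → V} {k : ℕ} {A : Submodule K V} (h : ∀ j < k, b j ∈ A) : Fg K b k ≤ A :=
  Submodule.span_le.2 (by rintro _ ⟨j, hj, rfl⟩; exact h j hj)

lemma Fg_zero {b : ℕ → V} {x : V} (h : x ∈ Fg K b 0) : x = 0 :=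
  Fg_le (A := ⊥) (by simp) h

variable (K) in
/-- The leading term of a vector. -/
def Lead (b : ℕ → V) (x : V) (k : ℕ) : Prop := ∃ c : K, c ≠ 0 ∧ x - c • b k ∈ Fg K b k

lemma Lead.mem {b : ℕ → V} {x : V} {k : ℕ} (h : Lead K b x k) : x ∈ Fg K b (k + 1) := by
  obtain ⟨c, -, h⟩ := h
  simpa using add_mem (Fg_mono (Nat.le_succ k) h) (Submodule.smul_mem _ c (mem_Fg (Nat.lt_succ_self k)))

lemma lead_self (b : ℕ → V) (k : ℕ) : Lead K b (b k) k := ⟨1, one_ne_zero, by simp⟩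

/-- A Jordan chain up to lower terms. -/
structure Chain (N : Module.End K V) (b : ℕ → V) (d : ℕ) : Prop where
  zero : N (b 0) = 0
  ne : b 0 ≠ 0
  step : ∀ k, k + 1 < d → Lead K b (N (b (k + 1))) k
  top : Fg K b d = ⊤

namespace Chain

variable {N : Module.End K V} {b : ℕ → V} {d : ℕ} (h : Chain N b d)
include h

lemma map_Fg {k : ℕ} (hk : k + 1 ≤ d) {x : V} (hx : x ∈ Fg K b (k + 1)) : N x ∈ Fg K b k := by
  refine Fg_le (A := (Fg K b k).comap N) (fun j hj => ?_) hx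
  rcases j with _ | j
  · simp [h.zero]
  · exact Fg_mono (by omega) (h.step j (by omega)).mem

lemma pow_Fg {k : ℕ} (hk : k ≤ d) {x : V} (hx : x ∈ Fg K b k) : (N ^ k) x = 0 := by
  induction k generalizing x with
  | zero => simpa using Fg_zero hx
  | succ k ih => rw [pow_succ, Module.End.mul_apply]; exact ih (by omega) (h.map_Fg hk hx)

lemma pow_eq_zero : N ^ d = 0 := LinearMap.ext fun x => h.pow_Fg le_rfl (h.top ▸ trivial)

lemma lead {k : ℕ} (hk : k + 1 < d) {x : V} (hx : Lead K b x (k + 1)) : Lead K b (N x) k := by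
  obtain ⟨c, hc, h1⟩ := hx
  obtain ⟨c', hc', h2⟩ := h.step k hk
  refine ⟨c * c', mul_ne_zero hc hc', ?_⟩
  convert add_mem (h.map_Fg hk.le h1) (Submodule.smul_mem _ c h2) using 1
  simp only [map_sub, map_smul]; module

lemma lead_pow {k : ℕ} (j : ℕ) (hk : k + j < d) {x : V} (hx : Lead K b x (k + j)) :
    Lead K b ((N ^ j) x) k := by
  induction j generalizing x with
  | zero => exact hx
  | succ j ih => rw [pow_succ, Module.End.mul_apply]; exact ih (by omega) (h.lead hk hx)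

lemma pow_ne_zero (hd : 0 < d) : N ^ (d - 1) ≠ 0 := fun e => by
  obtain ⟨c, hc, h1⟩ := h.lead_pow (k := 0) (d - 1) (by omega) (lead_self b _)
  have := Fg_zero h1
  simp [e, hc, h.ne] at this

lemma cyc {A : Submodule K V} (hA : ∀ x ∈ A, N x ∈ A) {k : ℕ} (hk : k < d) {x : V} (hx : x ∈ A)
    (hl : Lead K b x k) : Fg K b (k + 1) ≤ A := by
  have k1 : ∀ {k x}, x ∈ A → Lead K b x k → Fg K b k ≤ A → Fg K b (k + 1) ≤ A :=
    fun {k x} hx ⟨c, hc, h1⟩ h2 => Fg_le fun j hj => by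
      rcases Nat.lt_succ_iff_lt_or_eq.1 hj with hj | rfl
      · exact h2 (mem_Fg hj)
      · simpa [hc] using A.smul_mem c⁻¹ (A.sub_mem hx (h2 h1))
  induction k generalizing x with
  | zero => exact k1 hx hl (Fg_le (by simp))
  | succ k ih => exact k1 hx hl (ih (by omega) (hA x hx) (h.lead hk hl))

end Chain

end chain

variable {m : ℕ} {K V G : Type*} [Field K] [AddCommGroup V] [Module K V] [Group G]
  {E : Eich m K V G} {M : Subgroup G}

variable (E) in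
lemma exists_X {k : ℕ} (hk : k ≤ m) : ∃ X : G, (∀ v ∈ E.V0, E.ρ X v = v) ∧
    (∀ i, i = 0 ∨ k < i → i ≤ m → E.ρ X (E.e (p m i)) = E.e (p m i)) ∧
    (∀ i < k, Lead K (fun j => E.e (p m j)) (E.ρ X (E.e (p m (i + 1))) - E.e (p m (i + 1))) i) ∧
    (∀ i, k ≤ i → i ≤ m → E.ρ X (E.e (p m i).rev) = E.e (p m i).rev) ∧
    (∀ i < k, ∃ δ : K, δ ≠ 0 ∧
      E.ρ X (E.e (p m i).rev) = E.e (p m i).rev + δ • E.e (p m (i + 1)).rev) ∧
    (k = 1 → X = E.xl (p m 0) (p m 1).rev 1) := by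
  induction k with
  | zero => exact ⟨1, by simp, by simp, by simp, by simp, by simp, by simp⟩
  | succ k ih =>
    obtain ⟨X, h0, h1, h2, h3, h4, h5⟩ := ih (by omega)
    have i1 : In (p m k) (p m (k + 1)) := in_p (by omega) hk (by omega)
    have a1 : ∀ i ≤ m, i ≠ k + 1 → E.ρ (E.xl (p m k) (p m (k + 1)).rev 1) (E.e (p m i)) = E.e (p m i) :=
      fun i hi e => by
        have : E.B (E.e (p m i)) (E.e (p m k)) = 0 := by
          by_cases e' : i = k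
          · rw [e', B_e_e]
          · exact (E.B_in (in_p hi (by omega) e')).1
        simp [E.ρ_xl i1.rev, this, E.B_in (in_p hi hk e)]
    have a2 : ∀ i ≤ m, i ≠ k → E.ρ (E.xl (p m k) (p m (k + 1)).rev 1) (E.e (p m i).rev) =
        E.e (p m i).rev := fun i hi e => by
      have : E.B (E.e (p m i).rev) (E.e (p m (k + 1)).rev) = 0 := by
        by_cases e' : i = k + 1
        · rw [e', B_e_e]
        · exact (E.B_in (in_p hi hk e')).2.2.2.2.2.2.1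
      simp [E.ρ_xl i1.rev, this, E.B_in (in_p hi (by omega) e)]
    refine ⟨X * E.xl (p m k) (p m (k + 1)).rev 1, fun v hv => ?_, fun i hi hm => ?_, fun i hi => ?_,
      fun i hi hm => ?_, fun i hi => ?_, fun e => ?_⟩
    · simp [E.ρ_xl i1.rev, (B_V0 hv).1, h0 v hv]
    · rw [ρ_mul, a1 i hm (by omega), h1 i (by omega) hm]
    · rcases Nat.lt_succ_iff_lt_or_eq.1 hi with hi | rfl
      · rw [ρ_mul, a1 _ (by omega) (by omega)]; exact h2 i hi
      · refine ⟨_, E.κ_ne (p m (i + 1)), ?_⟩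
        have : E.ρ X (E.e (p m i)) - E.e (p m i) ∈ Fg K (fun j => E.e (p m j)) i := by
          rcases i with _ | i
          · simp [h1 0 (Or.inl rfl) (by omega)]
          · exact (h2 i (by omega)).mem
        convert Submodule.smul_mem _ (E.κ (p m (i + 1))) this using 1
        simp only [ρ_mul, E.ρ_xl i1.rev, E.B_in i1, B_e_rev, map_add, map_sub, map_smul,
          h1 (i + 1) (by omega) hk, map_one]
        module
    · rw [ρ_mul, a2 i hm (by omega), h3 i (by omega) hm]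
    · rcases Nat.lt_succ_iff_lt_or_eq.1 hi with hi | rfl
      · rw [ρ_mul, a2 _ (by omega) (by omega)]; exact h4 i hi
      · refine ⟨-(E.ε * E.κ (p m i).rev), by simp [E.ε_ne, E.κ_ne], ?_⟩
        simp only [ρ_mul, E.ρ_xl i1.rev, E.B_in i1, B_rev_e, map_add, map_sub, map_smul,
          h3 (i + 1) (by omega) hk, h3 i le_rfl (by omega)]
        module
    · obtain rfl : k = 0 := by omega
      have : X = 1 := E.ext' (fun a => by
        obtain ⟨i, hi, rfl | rfl⟩ := exists_p le_rfl (all_p a)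
        · simp [h1 i (by omega) (by omega)]
        · simp [h3 i (by omega) (by omega)]) fun v hv => by simp [h0 v hv]
      rw [this, one_mul]

variable (E) in
/-- A regular unipotent element adapted to the frame. -/
structure Reg (u : G) (b : ℕ → V) (d : ℕ) : Prop where
  chain : Chain (E.ρ u - 1) b d
  lo : ∀ i ≤ m, b i = E.e (p m i)
  hi : ∀ i ≤ m, b (d - 1 - i) = E.e (p m i).rev
  le : 2 * m + 2 ≤ d
  V0 : E.V0 ≤ Fg K b (d - 1 - m)
  f0 : 1 ≤ m → ∃ δ : K, δ ≠ 0 ∧ E.ρ u (E.e (p m 0).rev) = E.e (p m 0).rev + δ • E.e (p m 1).rev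

lemma Fg_top {b : ℕ → V} {d : ℕ} (lo : ∀ i ≤ m, b i = E.e (p m i))
    (hi : ∀ i ≤ m, b (d - 1 - i) = E.e (p m i).rev) (le : 2 * m + 2 ≤ d)
    (V0 : E.V0 ≤ Fg K b (d - 1 - m)) {k : ℕ} (hk : k ≤ m + 1) {x : V}
    (hx : ∀ i < k, E.B x (E.e (p m i)) = 0) : x ∈ Fg K b (d - k) := by
  have h1 := E.sub_mem_V0 x
  rw [← sub_add_cancel x (∑ a, (E.B x (E.e a.rev) / E.κ a) • E.e a)]
  refine add_mem (Fg_mono (by omega) (V0 h1)) (Submodule.sum_mem _ fun a _ => ?_)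
  obtain ⟨i, h2, rfl | rfl⟩ := exists_p le_rfl (all_p a)
  · exact Submodule.smul_mem _ _ (lo i (by omega) ▸ mem_Fg (by omega))
  · by_cases h3 : i < k
    · simp [hx i h3]
    · exact Submodule.smul_mem _ _ (hi i (by omega) ▸ mem_Fg (by omega))

lemma Lead.congr {b b' : ℕ → V} {x : V} {k : ℕ} (h : Lead K b x k) (e : ∀ j ≤ k, b' j = b j) :
    Lead K b' x k := by
  obtain ⟨c, hc, h⟩ := h
  exact ⟨c, hc, e k le_rfl ▸ Fg_le (fun j hj => e j hj.le ▸ mem_Fg hj) h⟩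

/-- Existence, with the complement of the frame of dimension `δ ≤ 1`. -/
lemma exists_reg {v : V} {c : K} (hv : E.P v c) (hc : c ≠ 0) (hV : ∀ w ∈ E.V0, ∃ t : K, t • v = w)
    {δ : ℕ} (h0 : δ = 0 ∧ v = 0 ∨ δ = 1 ∧ E.B v v ≠ 0) : ∃ u b, Reg E u b (2 * m + 2 + δ) ∧
      (δ = 1 → b (m + 1) = v) ∧ (m = 0 → u = E.T (E.e (p m m)) v c) ∧
      (m = 1 → u = E.xl (p m 0) (p m 1).rev 1 * E.T (E.e (p m m)) v c) := by
  obtain ⟨X, x0, x1, x2, x3, x4, x5⟩ := exists_X E (le_refl m)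
  have hδ : δ ≤ 1 := by omega
  let b : ℕ → V := fun k => if k ≤ m then E.e (p m k) else if k < m + 1 + δ then v else
    E.e (p m (2 * m + 1 + δ - k)).rev
  have lo : ∀ i ≤ m, b i = E.e (p m i) := fun i hi => if_pos hi
  have hi : ∀ i ≤ m, b (2 * m + 2 + δ - 1 - i) = E.e (p m i).rev := fun i hi => by
    simp only [b]
    rw [if_neg (by omega), if_neg (by omega), show 2 * m + 1 + δ - (2 * m + 2 + δ - 1 - i) = i by omega]
  have mid : δ = 1 → b (m + 1) = v := fun h => by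
    simp only [b]
    rw [if_neg (by omega), if_pos (by omega)]
  have V0 : E.V0 ≤ Fg K b (2 * m + 2 + δ - 1 - m) := fun w hw => by
    obtain ⟨t, rfl⟩ := hV w hw
    rcases h0 with ⟨-, rfl⟩ | ⟨h, -⟩
    · simp
    · exact Submodule.smul_mem _ _ (mid h ▸ mem_Fg (by omega))
  have s1 : ∀ i ≤ m, E.ρ (E.T (E.e (p m m)) v c) (E.e (p m i)) = E.e (p m i) := fun i hi => by
    have : E.B (E.e (p m i)) (E.e (p m m)) = 0 := by
      by_cases e' : i = m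
      · rw [e', B_e_e]
      · exact (E.B_in (in_p hi le_rfl e')).1
    simp [ρ_T (hv.adm _), this, hv.B0]
  have s2 : ∀ i < m, E.ρ (E.T (E.e (p m m)) v c) (E.e (p m i).rev) = E.e (p m i).rev := fun i hi => by
    simp [ρ_T (hv.adm _), hv.B0, E.B_in (in_p (m := m) hi.le le_rfl hi.ne)]
  have xm : E.ρ X (E.e (p m m)) - E.e (p m m) ∈ Fg K b m := by
    rcases Nat.eq_zero_or_pos m with h | h
    · rw [x1 m (Or.inl h) le_rfl]; simp
    · have := ((x2 (m - 1) (by omega)).congr (b' := b) fun j hj => lo j (by omega)).mem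
      rwa [Nat.sub_add_cancel h] at this
  refine ⟨X * E.T (E.e (p m m)) v c, b, ⟨⟨?_, ?_, fun k hk => ?_, ?_⟩, lo, hi, by omega, V0,
    fun hm => ?_⟩, mid, fun h => ?_, fun h => by rw [x5 h]⟩
  · simp [lo 0 (by omega), s1 0 (by omega), x1 0 (Or.inl rfl) (by omega)]
  · rw [lo 0 (by omega)]
    exact fun e => E.κ_ne (p m 0) (by simp [κ, e])
  · rw [LinearMap.sub_apply, Module.End.one_apply, ρ_mul]
    by_cases h1 : k + 1 ≤ m
    · rw [lo _ h1, s1 _ h1]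
      exact (x2 k h1).congr fun j hj => lo j (by omega)
    by_cases h2 : k + 1 < m + 1 + δ
    · obtain ⟨rfl, hB⟩ : δ = 1 ∧ E.B v v ≠ 0 := by rcases h0 with h | h; omega; exact h
      obtain rfl : k = m := by omega
      refine ⟨_, hB, ?_⟩
      convert Submodule.smul_mem _ (E.B v v) xm using 1
      simp only [mid rfl, lo k le_rfl, ρ_T (hv.adm _), (B_V0 hv.1).1, map_add, map_sub, map_smul,
        x0 v hv.1]
      module
    by_cases h3 : k = m + δ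
    · have e := hi m le_rfl
      rw [show 2 * m + 2 + δ - 1 - m = k + 1 by omega] at e
      rcases h0 with ⟨rfl, rfl⟩ | ⟨rfl, -⟩
      · obtain rfl : k = m := h3
        refine ⟨-(c * E.κ (p k k).rev), by simp [hc, E.κ_ne], ?_⟩
        convert Submodule.smul_mem _ (-(c * E.κ (p k k).rev)) xm using 1
        simp only [e, lo k le_rfl, ρ_T (hv.adm _), B_rev_e, map_add, map_sub, map_smul, map_zero,
          x3 k le_rfl le_rfl]
        module
      · subst h3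
        refine ⟨-(E.ε * E.κ (p m m).rev), by simp [E.ε_ne, E.κ_ne], ?_⟩
        convert Submodule.smul_mem _ (-(c * E.κ (p m m).rev)) (add_mem (Fg_mono (Nat.le_succ m) xm)
          (mem_Fg (Nat.lt_succ_self m))) using 1
        simp only [e, lo m le_rfl, mid rfl, ρ_T (hv.adm _), B_rev_e, map_add, map_sub, map_smul,
          x3 m le_rfl le_rfl, (B_V0 hv.1).2, x0 v hv.1]
        module
    · obtain ⟨i, hi1, e1, e2⟩ : ∃ i < m, k + 1 = 2 * m + 2 + δ - 1 - i ∧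
        k = 2 * m + 2 + δ - 1 - (i + 1) := ⟨2 * m + δ - k, by omega, by omega, by omega⟩
      obtain ⟨t, ht, h4⟩ := x4 i hi1
      refine ⟨t, ht, ?_⟩
      rw [e1, hi i hi1.le, s2 i hi1, h4]
      conv_lhs => rw [e2]
      conv_rhs => rw [e2, hi _ hi1]
      simp
  · exact eq_top_iff.2 fun x _ => Fg_top lo hi (by omega) V0 (k := 0) (by omega) (by simp)
  · obtain ⟨t, ht, h4⟩ := x4 0 hm
    exact ⟨t, ht, by rw [ρ_mul, s2 0 hm, h4]⟩
  · subst h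
    have : X = 1 := E.ext' (fun a => by
      obtain ⟨i, hi, rfl | rfl⟩ := exists_p le_rfl (all_p a)
      · simp [x1 i (by omega) (by omega)]
      · simp [x3 i (by omega) (by omega)]) fun v hv => by simp [x0 v hv]
    rw [this, one_mul]

namespace Reg

variable {u : G} {b : ℕ → V} {d : ℕ} (h : Reg E u b d)
include h

lemma e0 : E.ρ u (E.e (p m 0)) = E.e (p m 0) := by
  simpa [h.lo 0 (by omega), sub_eq_zero] using h.chain.zero

lemma e1 (hm : 1 ≤ m) : ∃ γ : K, γ ≠ 0 ∧ E.ρ u (E.e (p m 1)) = E.e (p m 1) + γ • E.e (p m 0) := by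
  obtain ⟨c, hc, h1⟩ := h.chain.step 0 (by have := h.le; omega)
  have := Fg_zero h1
  rw [h.lo 0 (by omega), h.lo 1 hm, LinearMap.sub_apply, Module.End.one_apply] at this
  exact ⟨c, hc, by linear_combination (norm := module) this⟩

lemma e2 (hm : 2 ≤ m) : ∃ γ γ' : K, γ ≠ 0 ∧
    E.ρ u (E.e (p m 2)) = E.e (p m 2) + γ • E.e (p m 1) + γ' • E.e (p m 0) := by
  obtain ⟨c, hc, h1⟩ := h.chain.step 1 (by have := h.le; omega)
  have := Fg_le (A := K ∙ b 0) (fun j hj => by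
    obtain rfl : j = 0 := by omega
    exact Submodule.mem_span_singleton_self _) h1
  obtain ⟨t, ht⟩ := Submodule.mem_span_singleton.1 this
  rw [h.lo 0 (by omega), h.lo 1 (by omega), h.lo 2 hm, LinearMap.sub_apply,
    Module.End.one_apply] at ht
  exact ⟨c, t, hc, by linear_combination (norm := module) -ht⟩

lemma lead_z (hm : 1 ≤ m) {z : V} (h0 : E.B z (E.e (p m 0)) = 0) (h1 : E.B z (E.e (p m 1)) ≠ 0) :
    Lead K b z (d - 2) := by
  have := E.κ_ne (p m 1).rev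
  have i01 : In (p m 0) (p m 1) := in_p (by omega) hm (by omega)
  refine ⟨E.B z (E.e (p m 1)) / E.κ (p m 1).rev, div_ne_zero h1 this,
    Fg_top h.lo h.hi h.le h.V0 (by omega) fun i hi => ?_⟩
  rw [show d - 2 = d - 1 - 1 by omega, h.hi 1 hm]
  obtain rfl | rfl : i = 0 ∨ i = 1 := by omega
  · simp [h0, E.B_in i01]
  · simp [B_rev_e, this]

lemma cyc_z (hm : 1 ≤ m) {A : Submodule K V} (hA : ∀ x ∈ A, E.ρ u x ∈ A) {z : V} (hz : z ∈ A)
    (h0 : E.B z (E.e (p m 0)) = 0) (h1 : E.B z (E.e (p m 1)) ≠ 0) {x : V}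
    (hx : E.B x (E.e (p m 0)) = 0) : x ∈ A := by
  have := h.le
  refine h.chain.cyc (fun x hx => A.sub_mem (hA x hx) hx) (by omega) hz (h.lead_z hm h0 h1) ?_
  rw [show d - 2 + 1 = d - 1 by omega]
  exact Fg_top h.lo h.hi h.le h.V0 (by omega) fun i hi => by
    obtain rfl : i = 0 := by omega
    exact hx

lemma exists_beta : ∃ k, E.B (E.ρ (u ^ k) (E.e (p m 0).rev)) (E.e (p m 0).rev) ≠ 0 := by
  by_contra hn
  push Not at hn
  have := h.le
  let A : Submodule K V :=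
    { carrier := {x | ∀ k, E.B (E.ρ (u ^ k) x) (E.e (p m 0).rev) = 0}
      add_mem' := fun h h' k => by rw [map_add, map_add, LinearMap.add_apply, h k, h' k, add_zero]
      zero_mem' := fun k => by simp
      smul_mem' := fun c x h k => by rw [map_smul, map_smul, LinearMap.smul_apply, h k, smul_zero] }
  have hA : ∀ x ∈ A, E.ρ u x ∈ A := fun x hx k => by rw [← ρ_mul, ← pow_succ]; exact hx _
  have h1 := h.chain.cyc (A := A) (fun x hx => A.sub_mem (hA x hx) hx) (k := d - 1) (by omega) hn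
    (h.hi 0 (by omega) ▸ lead_self b _)
  have h2 := h1 (mem_Fg (j := 0) (by omega)) 0
  rw [h.lo 0 (by omega)] at h2
  exact E.κ_ne (p m 0) (by simpa [κ] using h2)

end Reg

variable (E M) in
/-- The vector parts of the Eichler transformations with centre `y` in `M`. -/
def Ey (y x : V) : Prop := ∃ c, E.Adm y x c ∧ E.T y x c ∈ M

namespace Ey

variable {y x x' : V}

lemma add (h : Ey E M y x) (h' : Ey E M y x') : Ey E M y (x + x') := by
  obtain ⟨c, h1, h2⟩ := h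
  obtain ⟨d, h3, h4⟩ := h'
  exact ⟨_, h1.add h3, T_mul h1 h3 ▸ mul_mem h2 h4⟩

lemma neg (h : Ey E M y x) : Ey E M y (-x) := by
  obtain ⟨c, h1, h2⟩ := h
  exact ⟨_, h1.neg, T_inv h1 ▸ inv_mem h2⟩

lemma sub (h : Ey E M y x) (h' : Ey E M y x') : Ey E M y (x - x') :=
  sub_eq_add_neg x x' ▸ h.add h'.neg

lemma zero (hy : E.Λ y 0) : Ey E M y 0 := ⟨0, ⟨hy, E.Λ_zero, by simp⟩, T_zero hy ▸ one_mem _⟩

lemma conj {g : G} (hg : g ∈ M) (h : Ey E M y x) : Ey E M (E.ρ g y) (E.ρ g x) := by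
  obtain ⟨c, h1, h2⟩ := h
  exact ⟨_, h1.map g, T_conj h1 g ▸ mul_mem (mul_mem hg h2) (inv_mem hg)⟩

lemma fix {g : G} (hg : g ∈ M) (hy : E.ρ g y = y) (h : Ey E M y x) : Ey E M y (E.ρ g x) := by
  simpa [hy] using h.conj hg

lemma tau {z : V} {c : K} (hz : E.Adm z 0 c) (hM : E.T z 0 c ∈ M) (hy : E.B y z = 0)
    (h : Ey E M y x) : Ey E M y ((c * E.B x z) • z) := by
  simpa [ρ_T hz] using h.sub (h.fix hM (by simp [ρ_T hz, hy]))

end Ey

lemma adm0 {z : V} {c : K} (hz : E.Λ z 0) (hc : E.Λ 0 c) : E.Adm z 0 c := ⟨hz, hc, by simp⟩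

lemma σ_of_Λ {c : K} (hc : E.Λ 0 c) : E.ε * E.σ c = -c := by
  have h1 := E.Λ_B hc
  rw [map_zero] at h1
  linear_combination (-E.ε) * h1 + (-c) * E.ε_mul_ε

lemma Λ_perp {y v : V} (hy : E.Λ y 0) (hv : E.Λ v 0) (h : E.B y v = 0) : E.Λ (v + y) 0 :=
  Λ_congr (E.Λ_add hv hy) rfl (by simp [h])

lemma T_add_smul {y v : V} {c : K} (hy : E.Λ y 0) (hv : E.Λ v 0) (h : E.B y v = 0) (hc : E.Λ 0 c)
    (γ : K) : E.Adm y ((E.ε * c * E.σ γ) • v) (γ * E.σ γ * c) ∧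
      E.T (v + γ • y) 0 c = E.T v 0 c * E.T y ((E.ε * c * E.σ γ) • v) (γ * E.σ γ * c) := by
  have h1 : E.Adm y ((E.ε * c * E.σ γ) • v) (γ * E.σ γ * c) :=
    ⟨hy, by simpa using Λ_add0 (Λ_smul0 hv (E.ε * c * E.σ γ)) (by simpa using E.Λ_smul γ hc),
      by simp [h]⟩
  refine ⟨h1, E.ext fun x => ?_⟩
  have e : E.σ c = -(E.ε * c) := by linear_combination E.ε * σ_of_Λ hc - E.σ c * E.ε_mul_ε
  rw [ρ_mul, ρ_T h1, ρ_T (adm0 hv hc), ρ_T (adm0 (Λ_perp (Λ_smul0 hy γ) hv (by simp [h])) hc)]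
  simp only [map_add, map_sub, map_smulₛₗ,
    LinearMap.add_apply, LinearMap.sub_apply, LinearMap.smul_apply, h, B_self hv, map_mul, σ_σ, σ_ε,
    RingHom.id_apply, smul_eq_mul, map_zero, e, mul_zero, zero_smul, smul_zero]
  rcases E.hε with h | h <;> simp only [h] <;> module

lemma T_self {y : V} (hy : E.Λ y 0) (a : K) : E.Adm y (a • y) 0 ∧
    E.T y (a • y) 0 = E.T y 0 (E.ε * a - E.σ a) := by
  have h1 : E.Adm y (a • y) 0 := ⟨hy, Λ_smul0 hy a, by simp [B_self hy]⟩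
  have h2 : E.Λ 0 (E.ε * a - E.σ a) := Λ_congr (E.Λ_min (E.ε * a)) rfl (by simp [← mul_assoc])
  refine ⟨h1, E.ext fun x => ?_⟩
  simp only [ρ_T h1, ρ_T (adm0 hy h2), map_smulₛₗ, map_zero, smul_eq_mul]
  module

variable (E M) in
/-- All vector parts occur. -/
def Full (y : V) : Prop := ∀ x, E.B x y = 0 → Ey E M y x

lemma Full.conj {y : V} {g : G} (hg : g ∈ M) (h : Full E M y) : Full E M (E.ρ g y) := fun x hx => by
  simpa using (h (E.ρ g⁻¹ x) (by rwa [B_ρ_inv])).conj hg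

lemma Reg.full {u : G} {b : ℕ → V} {d : ℕ} (h : Reg E u b d) (hm : 1 ≤ m) (hu : u ∈ M) {s c : K}
    (hs : s ≠ 0) (hc : E.Λ 0 c) (c0 : c ≠ 0) (hv : E.T (s • E.e (p m 1)) 0 c ∈ M) {z : V}
    (hz : E.Λ z 0) (hzM : E.T z 0 c ∈ M) (h0 : E.B z (E.e (p m 0)) = 0)
    (h1 : E.B z (E.e (p m 1)) ≠ 0)
    (hA : ∀ A : AddSubgroup K,
      (∀ a ∈ A, c * c * (E.B z (s • E.e (p m 1)) * E.B (s • E.e (p m 1)) z) * a ∈ A) →
      (∀ k, ∀ a ∈ A, c * E.B (E.ρ (u ^ k) z) z * a ∈ A) → ∀ a ∈ A, a ≠ 0 → A = ⊤) :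
    Full E M (E.e (p m 0)) := by
  have i01 : In (p m 0) (p m 1) := in_p (by omega) hm (by omega)
  have hy := E.e_Λ (p m 0)
  have hv0 := Λ_smul0 (E.e_Λ (p m 1)) s
  have hyv : E.B (E.e (p m 0)) (s • E.e (p m 1)) = 0 := by simp [E.B_in i01]
  have h0' := E.B_eq_zero_comm h0
  have hvz : E.B (s • E.e (p m 1)) z ≠ 0 := fun e => h1 (by
    simpa [hs] using E.B_eq_zero_comm e)
  obtain ⟨γ, γ0, hγ⟩ := h.e1 hm
  have k1 : Ey E M (E.e (p m 0)) ((E.ε * c * E.σ (s * γ)) • s • E.e (p m 1)) := by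
    obtain ⟨h2, h3⟩ := T_add_smul hy hv0 hyv hc (s * γ)
    have h4 := mul_mem (mul_mem hu hv) (inv_mem hu)
    rw [T_conj (adm0 hv0 hc), map_smul, hγ, smul_add, smul_smul, map_zero, h3] at h4
    exact ⟨_, h2, (M.mul_mem_cancel_left hv).1 h4⟩
  let A : AddSubgroup K :=
    { carrier := {a | Ey E M (E.e (p m 0)) (a • z)}
      add_mem' := fun {a a'} h h' => by simpa [add_smul] using Ey.add h h'
      zero_mem' := by simpa using Ey.zero hy
      neg_mem' := fun {a} h => by simpa using Ey.neg h }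
  have k2 : A = ⊤ := hA A (fun a ha => by
      have := (Ey.tau (adm0 hv0 hc) hv hyv ha).tau (adm0 hz hc) hzM h0'
      change Ey _ _ _ _
      convert this using 2
      simp only [map_smulₛₗ, LinearMap.smul_apply, RingHom.id_apply, smul_eq_mul]; ring)
    (fun k a ha => by
      have := (Ey.fix (pow_mem hu k) (by
        induction k with
        | zero => simp
        | succ k ih => rw [pow_succ, ρ_mul, h.e0, ih]) ha).tau (adm0 hz hc) hzM h0'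
      change Ey _ _ _ _
      convert this using 2
      simp only [map_smulₛₗ, LinearMap.smul_apply, RingHom.id_apply, smul_eq_mul]; ring) _
    (k1.tau (adm0 hz hc) hzM h0') (by
      rw [map_smul, LinearMap.smul_apply, smul_eq_mul]
      simp only [ne_eq, mul_eq_zero, c0, hvz, E.ε_ne, map_eq_zero, hs, γ0, or_self, not_false_eq_true])
  let A' : Submodule K V :=
    { carrier := {x | ∀ a : K, Ey E M (E.e (p m 0)) (a • x)}
      add_mem' := fun h h' a => by simpa using (h a).add (h' a)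
      zero_mem' := fun a => by simpa using Ey.zero hy
      smul_mem' := fun c x h a => by simpa [smul_smul] using h (a * c) }
  intro x hx
  simpa using h.cyc_z hm (A := A') (fun x hx a => by simpa using (hx a).fix hu h.e0)
    (fun a => (k2 ▸ AddSubgroup.mem_top a : a ∈ A)) h0 h1 hx 1

variable (E M) in
/-- The centre parameters. -/
def ZS {y : V} (hy : E.Λ y 0) : AddSubgroup K where
  carrier := {c | E.Λ 0 c ∧ E.T y 0 c ∈ M}
  add_mem' := fun {c d} h h' => ⟨Λ_add0 h.1 h'.1, by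
    have := M.mul_mem h.2 h'.2
    rw [T_mul (adm0 hy h.1) (adm0 hy h'.1)] at this
    simpa using this⟩
  zero_mem' := ⟨E.Λ_zero, by simp [T_zero hy]⟩
  neg_mem' := fun {c} h => ⟨by simpa [σ_of_Λ h.1] using Λ_neg h.1, by
    have := M.inv_mem h.2
    rwa [T_inv (adm0 hy h.1), neg_zero, σ_of_Λ h.1] at this⟩

variable (E M) in
/-- All Eichler transformations with centre `y` lie in `M`. -/
def UU (y : V) : Prop := ∀ x c, E.Adm y x c → E.T y x c ∈ M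

lemma Full.uu {y : V} (h : Full E M y) (hZ : ∀ c, E.Λ 0 c → E.T y 0 c ∈ M) : UU E M y :=
  fun x c h1 => by
    obtain ⟨d, h2, h3⟩ := h x (E.B_eq_zero_comm h1.2.2)
    have h0 := adm0 h1.1 (Λ_sub h1.2.1 h2.2.1)
    have := mul_mem h3 (hZ _ h0.2.1)
    rw [T_mul h2 h0] at this
    simpa using this

lemma UU.conj {y : V} {g : G} (hg : g ∈ M) (h : UU E M y) : UU E M (E.ρ g y) := fun x c h1 => by
  have h2 := h1.map g⁻¹
  rw [ρ_inv_ρ] at h2
  have := mul_mem (mul_mem hg (h _ _ h2)) (inv_mem hg)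
  rwa [T_conj h2, ρ_ρ_inv] at this

lemma UU.smul {y : V} (hy : E.Λ y 0) {t : K} (ht : t ≠ 0) (h : UU E M (t • y)) : UU E M y :=
  fun x c h1 => by
    have h2 : E.Adm y ((E.σ t)⁻¹ • x) (t⁻¹ * (E.σ t)⁻¹ * c) :=
      ⟨hy, by simpa [mul_comm] using E.Λ_smul (E.σ t)⁻¹ h1.2.1, by simp [h1.2.2]⟩
    have := h _ _ ⟨Λ_smul0 hy t, h2.2.1, by simp [h1.2.2]⟩
    have h3 := E.σ_ne ht
    rwa [T_smul h2, smul_smul, mul_inv_cancel₀ h3, one_smul,
      show t * E.σ t * (t⁻¹ * (E.σ t)⁻¹ * c) = c by field_simp] at this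

lemma UU.move {x z z' : V} (hx : E.Λ x 0) (h : UU E M x) (hz : E.Λ z 0) (hz' : E.Λ z' 0)
    (h1 : E.B z x ≠ 0) (h2 : E.B z' x ≠ 0) (h3 : UU E M z) : UU E M z' := by
  have := E.ε_ne
  obtain ⟨t, ht⟩ : ∃ t, t = E.B z x / E.B z' x := ⟨_, rfl⟩
  have e : E.B (t • z') x = E.B z x := by simp [ht, h2]
  have h4 := E.Λ_smul (E.ε * E.B z x)⁻¹ (E.Λ_add (Λ_smul0 (Λ_smul0 hz' t) (-1)) hz)
  have h5 : E.Adm x _ _ := ⟨hx, h4, E.B_eq_zero_comm (by
    rw [map_smul, map_add, map_smul, LinearMap.smul_apply, LinearMap.add_apply, LinearMap.smul_apply, e]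
    simp)⟩
  refine UU.smul hz' (t := t) (by simp [ht, h1, h2]) ?_
  convert h3.conj (h _ _ h5) using 1
  rw [ρ_T h5]
  generalize t • z' = w
  simp only [map_smulₛₗ, map_add, B_self hz, smul_eq_mul, map_neg, map_one]
  generalize E.σ (E.ε * E.B z x)⁻¹ = r
  match_scalars <;> (try field_simp) <;> ring

lemma top_of_UU (hg : E.Gen) (h : UU E M (E.e (p m 0))) {g : G} (hM : g ∈ M)
    (h1 : E.B (E.ρ g (E.e (p m 0))) (E.e (p m 0)) ≠ 0) : M = ⊤ := by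
  have k : ∀ {z}, E.Λ z 0 → E.B z (E.e (p m 0)) ≠ 0 → UU E M z := fun hz h2 =>
    h.move (E.e_Λ _) (E.ρ_Λ g (E.e_Λ _)) hz h1 h2 (h.conj hM)
  have k2 : ∀ a, UU E M (E.e a) := fun a => by
    rcases VC.in_cases (p m 0) a with rfl | rfl | e
    · exact h
    · exact k (E.e_Λ _) (E.B_rev_e _ ▸ E.κ_ne _)
    · have hz := Λ_perp (E.e_Λ a.rev) (E.e_Λ (p m 0).rev) (E.B_in e).2.2.2.2.2.2.2
      exact (k hz (by simp [E.B_in e, B_rev_e, E.κ_ne])).move hz (E.e_Λ _) (E.e_Λ a)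
        (by simp [E.B_in e, B_e_rev, E.κ_ne]) (by simp [E.B_in e, B_e_rev, E.κ_ne]) h
  refine top_of hg (fun a b hab => ?_) fun a => ?_
  · rintro _ ⟨t, rfl⟩
    rw [E.xl_eq hab]
    exact k2 a _ _ (E.adm_xl hab t)
  · rintro _ ⟨v, c, hv, rfl⟩
    exact k2 a _ _ (hv.adm a)

lemma exists_scale {a b : J m} (hab : In a b) {s : K} (hs : s ≠ 0) (h : Full E M (E.e a))
    (h' : Full E M (s • E.e b)) {l : K} (hl : l ≠ 0) : ∃ g ∈ M, E.ρ g (E.e a) = l • E.e a := by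
  have k1 := E.κ_ne a
  have k2 := E.κ_ne b
  have a1 : ∀ t : K, ∃ g ∈ M, E.ρ g (E.e a) = E.e a + t • E.e b ∧ E.ρ g (E.e b) = E.e b := fun t => by
    obtain ⟨c, h1, h2⟩ := h' (E.σ (t / (s * E.κ a)) • E.e a.rev) (by simp [E.B_in hab])
    refine ⟨_, h2, ?_, ?_⟩
    · simp only [ρ_T h1, map_smulₛₗ, σ_σ, B_e_rev, E.B_in hab, smul_eq_mul]
      match_scalars <;> field_simp <;> ring
    · rw [ρ_T h1]; simp [E.B_in hab, B_e_e]
  obtain ⟨c, h1, h2⟩ := h (E.σ ((l - 1) / E.κ b) • E.e b.rev) (by simp [E.B_in hab])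
  obtain ⟨g, g1, g2, -⟩ := a1 1
  obtain ⟨g', g3, g4, g5⟩ := a1 (-l⁻¹)
  refine ⟨_, mul_mem g3 (mul_mem h2 g1), ?_⟩
  simp only [ρ_mul, g2, map_add, ρ_T h1, map_smulₛₗ, σ_σ, B_e_rev, E.B_in hab, smul_eq_mul, B_e_e,
    map_sub, g4, g5, RingHom.id_apply, LinearMap.add_apply, LinearMap.smul_apply]
  match_scalars <;> field_simp <;> ring

/-- The third generator. -/
lemma Reg.third {u : G} {b : ℕ → V} {d : ℕ} (h : Reg E u b d) (hg : E.Gen) (hm : 1 ≤ m) :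
    ∃ (g : G) (β : K) (z : V), β ≠ 0 ∧ E.Λ z 0 ∧ E.B z (E.e (p m 0)) = 0 ∧ E.B z (E.e (p m 1)) ≠ 0 ∧
      ∀ c, E.Λ 0 c → c ≠ 0 →
      (∀ A : AddSubgroup K, (∀ a ∈ A, c * c * (β * (E.ε * E.σ β)) * a ∈ A) →
        (∀ k, ∀ a ∈ A, c * E.B (E.ρ (u ^ k) z) z * a ∈ A) → ∀ a ∈ A, a ≠ 0 → A = ⊤) →
      (∀ A : AddSubgroup K, (∀ l, l ≠ 0 → l * E.σ l * c ∈ A) → ∀ c', E.Λ 0 c' → c' ∈ A) →
      ∀ M : Subgroup G, u ∈ M → E.T (E.e (p m 0)) 0 c ∈ M → g * u * g⁻¹ ∈ M → M = ⊤ := by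
  classical
  have i01 : In (p m 0) (p m 1) := in_p (by omega) hm (by omega)
  obtain ⟨δ, δ0, hδ⟩ := h.f0 hm
  have k1 := E.κ_ne (p m 0)
  have k2 := E.κ_ne (p m 1).rev
  obtain ⟨g, s, s0, g0, g1⟩ : ∃ (g : G) (s : K), s ≠ 0 ∧
      E.ρ g (E.e (p m 0)) = E.ρ u (E.e (p m 0).rev) ∧ E.ρ g (s • E.e (p m 1)) = E.e (p m 0).rev := by
    obtain ⟨t, ht⟩ : ∃ t, t = E.σ (-(δ * E.κ (p m 1).rev / E.κ (p m 0))) := ⟨_, rfl⟩
    have t0 : t ≠ 0 := ht ▸ E.σ_ne (by simp [*])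
    have w := E.mono_wL i01 t0
    refine ⟨E.xl (p m 0).rev (p m 1) (E.σ (δ * E.κ (p m 1).rev)⁻¹) * E.wL (p m 0) (p m 1) t, t⁻¹,
      inv_ne_zero t0, ?_, ?_⟩
    · rw [ρ_mul, w, hδ]
      simp only [fL, if_true, VC.τp_apply, VC.τ_left, map_smul, E.ρ_xl i01.rev', σ_σ, B_rev_e,
        E.B_in i01, ht, LinearMap.smul_apply, smul_eq_mul]
      match_scalars <;> field_simp <;> ring
    · rw [map_smul, ρ_mul, w]
      simp [fL, i01.ne', E.ρ_xl i01.rev', E.B_in i01, B_e_e, t0]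
  have ex := h.exists_beta
  obtain ⟨k, hk⟩ : ∃ k, Nat.find ex = k + 1 := Nat.exists_eq_succ_of_ne_zero fun e => by
    have := Nat.find_spec ex
    rw [e] at this
    simp [B_e_e] at this
  have b1 := Nat.find_spec ex
  have b0 := Nat.find_min ex (m := k) (by omega)
  rw [hk] at b1
  rw [not_not] at b0
  have z0 : E.B (E.ρ g⁻¹ (E.ρ (u ^ (k + 1)) (E.e (p m 0).rev))) (E.e (p m 0)) = 0 := by
    rw [B_ρ_inv, g0, pow_succ', ρ_mul, E.ρ_B, b0]
  have z1 : E.B (E.ρ g⁻¹ (E.ρ (u ^ (k + 1)) (E.e (p m 0).rev))) (s • E.e (p m 1)) =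
      E.B (E.ρ (u ^ (k + 1)) (E.e (p m 0).rev)) (E.e (p m 0).rev) := by
    rw [B_ρ_inv, g1]
  have z2 : E.B (E.ρ g⁻¹ (E.ρ (u ^ (k + 1)) (E.e (p m 0).rev))) (E.e (p m 1)) ≠ 0 := fun e =>
    b1 (by rw [← z1, map_smulₛₗ, e, smul_zero])
  refine ⟨g⁻¹, _, _, b1, E.ρ_Λ _ (E.ρ_Λ _ (E.e_Λ _)), z0, z2, fun c hc c0 hA hZ M hu ht h3 => ?_⟩
  have u3 : ∀ j, E.ρ ((g⁻¹ * u * g⁻¹⁻¹) ^ j) (E.e (p m 0)) =
      E.ρ g⁻¹ (E.ρ (u ^ (j + 1)) (E.e (p m 0).rev)) := fun j => by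
    rw [conj_pow, inv_inv, ρ_mul, ρ_mul, g0, pow_succ, ρ_mul]
  have u4 : E.ρ (g⁻¹ * u * g⁻¹⁻¹)⁻¹ (E.e (p m 0)) = s • E.e (p m 1) :=
    E.ρ_inv_eq (by rw [inv_inv, ρ_mul, ρ_mul, g1, ← g0, ρ_inv_ρ])
  have tc : ∀ x ∈ M, E.T (E.ρ x (E.e (p m 0))) 0 c ∈ M := fun x hx => by
    have := mul_mem (mul_mem hx ht) (inv_mem hx)
    rwa [T_conj (adm0 (E.e_Λ _) hc), map_zero] at this
  have f0 := h.full hm hu s0 hc c0 (u4 ▸ tc _ (inv_mem h3)) (E.ρ_Λ _ (E.ρ_Λ _ (E.e_Λ _)))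
    (u3 k ▸ tc _ (pow_mem h3 k)) z0 z2 (by rwa [E.B_swap _ (s • E.e (p m 1)), z1])
  refine top_of_UU hg (f0.uu fun c' hc' => (hZ (ZS E M (E.e_Λ _)) (fun l hl => ?_) c' hc').2)
    (pow_mem h3 (k + 1)) (by rwa [u3, B_ρ_inv, g0, pow_succ' u (k + 1), ρ_mul, E.ρ_B])
  obtain ⟨x, hx, e⟩ := exists_scale i01 s0 f0 (u4 ▸ f0.conj (inv_mem h3)) hl
  have := tc x hx
  rw [e, T_smul (adm0 (E.e_Λ _) hc), smul_zero] at this
  exact ⟨by simpa using E.Λ_smul l hc, this⟩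

lemma Reg.second {u : G} {b : ℕ → V} {d : ℕ} (h : Reg E u b d) (hm : 1 ≤ m) {c : K}
    (hc : ∃ a, c = E.ε * a - E.σ a) : ∃ g : G, g * u * g⁻¹ = E.T (E.e (p m 0)) 0 c * u := by
  have i01 : In (p m 0) (p m 1) := in_p (by omega) hm (by omega)
  obtain ⟨γ, γ0, hγ⟩ := h.e1 hm
  obtain ⟨a, rfl⟩ := hc
  have h1 := E.adm_xl i01 (a / γ)
  obtain ⟨h2, h3⟩ := T_self (E.e_Λ (p m 0)) a
  have h4 := T_conj h1 u
  have h5 := T_mul h1 h2
  rw [h.e0, map_smul, hγ, smul_add, smul_smul, div_mul_cancel₀ _ γ0] at h4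
  simp only [map_smulₛₗ, LinearMap.smul_apply, E.B_in i01, smul_zero, mul_zero, add_zero] at h5
  rw [← h5, h3] at h4
  refine ⟨(E.T (E.e (p m 0)) ((a / γ) • E.e (p m 1)) 0)⁻¹, ?_⟩
  rw [inv_inv, mul_assoc, inv_mul_eq_iff_eq_mul, ← mul_assoc, ← h4, inv_mul_cancel_right]

lemma Reg.second' [Finite K] {u : G} {b : ℕ → V} {d : ℕ} (h : Reg E u b d) (hm : 2 ≤ m)
    (hσ : ∀ t, E.σ t = t) (h2 : (2 : K) = 0) (hΛ : ∀ c, E.Λ 0 c) (c : K) :
    ∃ g : G, g * u * g⁻¹ = E.T (E.e (p m 0)) 0 c * u := by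
  have i01 : In (p m 0) (p m 1) := in_p (by omega) (by omega) (by omega)
  have i02 : In (p m 0) (p m 2) := in_p (by omega) (by omega) (by omega)
  have i12 : In (p m 1) (p m 2) := in_p (by omega) (by omega) (by omega)
  obtain ⟨γ, γ0, hγ⟩ := h.e1 (by omega)
  obtain ⟨γ1, γ2, γ3, hγ'⟩ := h.e2 hm
  have hε : E.ε = 1 := by
    rcases E.hε with h | h
    · exact h
    · rw [h]; linear_combination -h2
  have a1 := adm0 (E.e_Λ (p m 1)) (hΛ (c / γ ^ 2))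
  have a2 := E.adm_xl i02 (c / (γ * γ1))
  have h4 := T_conj a1 u
  have h5 := T_conj a2 u
  obtain ⟨a3, h6⟩ := T_add_smul (E.e_Λ (p m 0)) (E.e_Λ (p m 1)) (E.B_in i01).1 (hΛ (c / γ ^ 2)) γ
  rw [hγ, map_zero, h6] at h4
  have a4 := a2.map u
  rw [h.e0, map_smul, hγ'] at h5 a4
  refine ⟨(E.T (E.e (p m 1)) 0 (c / γ ^ 2) * E.T (E.e (p m 0)) ((c / (γ * γ1)) • E.e (p m 2)) 0)⁻¹, ?_⟩
  rw [inv_inv, mul_assoc, inv_mul_eq_iff_eq_mul, ← mul_assoc, ← mul_assoc, ← mul_inv_eq_iff_eq_mul,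
    show ∀ x y : G, u * x * y * u⁻¹ = u * x * u⁻¹ * (u * y * u⁻¹) from fun x y => by group, h4, h5,
    mul_assoc (E.T _ 0 _), mul_assoc (E.T _ 0 _), T_mul a3 a4, T_mul a2 (adm0 (E.e_Λ _) (hΛ c))]
  congr 1
  refine E.ext fun x => ?_
  rw [ρ_T (a3.add a4), ρ_T (a2.add (adm0 (E.e_Λ _) (hΛ c)))]
  simp only [map_add, map_smulₛₗ, LinearMap.add_apply, LinearMap.smul_apply, hσ, hε, E.B_in i01,
    E.B_in i12, B_e_e, smul_eq_mul, RingHom.id_apply, map_zero, LinearMap.zero_apply]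
  match_scalars <;> field_simp <;> grind

variable (E) in
/-- Generation by three conjugate regular unipotent elements. -/
def Three (d : ℕ) : Prop := ∃ u g h : G, IsNilpotent (E.ρ u - 1) ∧ (E.ρ u - 1) ^ (d - 1) ≠ 0 ∧
  Subgroup.closure {u, g * u * g⁻¹, h * u * h⁻¹} = ⊤

lemma Reg.three {u : G} {b : ℕ → V} {d : ℕ} (h : Reg E u b d) (g g' : G)
    (k : ∀ M : Subgroup G, u ∈ M → g * u * g⁻¹ ∈ M → g' * u * g'⁻¹ ∈ M → M = ⊤) : Three E d :=
  ⟨u, g, g', ⟨d, h.chain.pow_eq_zero⟩, h.chain.pow_ne_zero (by have := h.le; omega),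
    k _ (Subgroup.subset_closure (by simp)) (Subgroup.subset_closure (by simp))
      (Subgroup.subset_closure (by simp))⟩

section sp

variable [Finite K] (hg : E.Gen) (hσ : ∀ t, E.σ t = t) (hε : E.ε = -1) (hΛ : ∀ c, E.Λ 0 c)
  (hV : ∀ v ∈ E.V0, v = 0)

omit [Finite K] in
include hε hσ in
lemma spans_sp {μ c β : K} (hμ : Spans (μ ^ 2)) (e : (c * β) ^ 2 = μ ^ 2) (A : AddSubgroup K)
    (h : ∀ a ∈ A, c * c * (β * (E.ε * E.σ β)) * a ∈ A) (a : K) (ha : a ∈ A) (h0 : a ≠ 0) : A = ⊤ :=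
  eq_top_iff.2 fun t _ => hμ.all A (fun t ht => by
    convert A.neg_mem (h t ht) using 1
    rw [hε, hσ, ← e]; ring) ha h0 t

include hσ in
lemma sq_sp {c : K} (c0 : c ≠ 0) (A : AddSubgroup K) (h : ∀ l, l ≠ 0 → l * E.σ l * c ∈ A) (c' : K) :
    c' ∈ A := by
  have := mem_of_sq (A.comap (AddMonoidHom.mulRight c)) (fun l => by
    by_cases hl : l = 0
    · simp [hl]
    · simpa [hσ, sq] using h l hl) (c' * c⁻¹)
  simpa [c0] using this

include hg hσ hε hΛ hV in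
theorem three_sp (hm : 1 ≤ m) (h2 : m = 1 → (2 : K) ≠ 0) : Three E (2 * m + 2) := by
  obtain ⟨u, b, h, -⟩ := exists_reg (P.zero (hΛ 1)) one_ne_zero
    (fun w hw => ⟨0, by simp [hV w hw]⟩) (δ := 0) (Or.inl ⟨rfl, rfl⟩)
  obtain ⟨g, β, z, β0, -, -, -, k⟩ := h.third hg hm
  obtain ⟨μ, μ0, hμ⟩ := exists_prim K
  have c0 : μ / β ≠ 0 := div_ne_zero μ0 β0
  obtain ⟨g', e⟩ : ∃ g' : G, g' * u * g'⁻¹ = E.T (E.e (p m 0)) 0 (μ / β) * u := by
    by_cases h3 : (2 : K) = 0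
    · exact h.second' (by by_contra h4; exact h2 (by omega) h3) hσ h3 hΛ _
    · exact h.second hm ⟨-(μ / β) / 2, by rw [hε, hσ]; field_simp; ring⟩
  refine h.three g' g fun M h1 h3 h4 => k _ (hΛ _) c0 (fun A hA _ => spans_sp hσ hε (spans_sq hμ)
    (by rw [div_mul_cancel₀ _ β0]) A hA) (fun A hA c' _ => sq_sp hσ c0 A hA c') M h1 ?_ h4
  rwa [e, M.mul_mem_cancel_right h1] at h3

end sp

theorem three_sp4 {E : Eich 1 K V G} [Finite K] (hg : E.Gen) (hσ : ∀ t, E.σ t = t) (hε : E.ε = -1)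
    (hΛ : ∀ c, E.Λ 0 c) (hV : ∀ v ∈ E.V0, v = 0) (h2 : (2 : K) = 0) (hK : ∃ t : K, t ≠ 0 ∧ t ≠ 1) :
    Three E 4 := by
  have i01 : In (p 1 0) (p 1 1) := in_p (by omega) (by omega) (by omega)
  obtain ⟨l, l0, l1⟩ := hK
  have l2 : l ^ 2 - 1 ≠ 0 := fun e => l1 (by
    have : (l - 1) ^ 2 = 0 := by linear_combination e + (1 - l) * h2
    simpa [sub_eq_zero] using this)
  obtain ⟨n, f, τ, hn, -⟩ := exists_cycB (P.zero (hΛ 1)) one_ne_zero
  have n0 : E.ρ n (E.e (p 1 0)) = f (p 1 0) • E.e (p 1 1) := by rw [hn.1, hn.2.1 0 (by omega)]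
  have n1 : E.ρ n (E.e (p 1 1)) = f (p 1 1) • E.e (p 1 0).rev := by
    rw [hn.1, show τ (p 1 1) = _ from hn.2.2]
  have f0 := hn.1.ne (p 1 0)
  have f1 := hn.1.ne (p 1 1)
  have k0 := E.κ_ne (p 1 0)
  have k1 := E.κ_ne (p 1 1)
  have k2 := E.κ_ne (p 1 0).rev
  have k3 := E.κ_ne (p 1 1).rev
  obtain ⟨μ, μ0, hμ⟩ := exists_prim K
  obtain ⟨C, hC⟩ : ∃ C, C = f (p 1 1) ^ 2 * E.κ (p 1 0).rev * E.κ (p 1 1).rev * E.κ (p 1 1) *
    E.κ (p 1 0) := ⟨_, rfl⟩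
  have C0 : C ≠ 0 := by simp [hC, *]
  obtain ⟨c0, e0⟩ := FiniteField.isSquare_of_char_two (F := K)
    (CharP.ringChar_of_prime_eq_zero Nat.prime_two (by exact_mod_cast h2)) (μ / ((l ^ 2 - 1) * C))
  have c1 : c0 ≠ 0 := by rintro rfl; simp [μ0, l2, C0] at e0
  obtain ⟨u, b, h, -, -, hu⟩ := exists_reg (P.zero (hΛ c0)) c1
    (fun w hw => ⟨0, by simp [hV w hw]⟩) (δ := 0) (Or.inl ⟨rfl, rfl⟩)
  replace hu := hu rfl
  obtain ⟨g, f', g1, g2, g3, -, -, -⟩ := E.exists_hL i01 l0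
  have ad : ∀ a c, E.Adm (E.e a) 0 c := fun a c => adm0 (E.e_Λ a) (hΛ c)
  have e1 : g * u * g⁻¹ = u * E.T (E.e (p 1 1)) 0 ((l ^ 2 - 1) * c0) := by
    rw [hu, show ∀ x y : G, g * (x * y) * g⁻¹ = g * x * g⁻¹ * (g * y * g⁻¹) from fun x y => by group,
      g1.conj_xl i01.rev, g1.conj_T (P.zero (hΛ c0)), mul_assoc (E.xl _ _ _), T_mul (ad _ _) (ad _ _),
      g1.rev_eq, g2, g3]
    simp only [hσ, Equiv.Perm.coe_one, id, map_zero, smul_zero, add_zero, mul_zero]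
    congr 2
    · field_simp
    · ring
  have u0 : ∀ x, E.ρ u x = E.ρ (E.xl (p 1 0) (p 1 1).rev 1) (E.ρ (E.T (E.e (p 1 1)) 0 c0) x) :=
    fun x => by rw [hu, ρ_mul]
  have u1 : E.ρ u (E.e (p 1 0).rev) = E.e (p 1 0).rev + E.κ (p 1 0).rev • E.e (p 1 1).rev := by
    simp [u0, ρ_T (ad _ _), E.ρ_xl i01.rev, E.B_in i01, B_rev_e, hε]
  have u2 : E.ρ u (E.e (p 1 1).rev) = E.e (p 1 1).rev -
      (c0 * E.κ (p 1 1).rev) • (E.e (p 1 1) + E.κ (p 1 1) • E.e (p 1 0)) := by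
    simp [u0, ρ_T (ad _ _), E.ρ_xl i01.rev, E.B_in i01, B_rev_e, B_e_rev, B_e_e]
    module
  have u3 : E.ρ (u * u) (E.e (p 1 0).rev) = E.e (p 1 0).rev + E.κ (p 1 0).rev • E.e (p 1 1).rev +
      E.κ (p 1 0).rev • (E.e (p 1 1).rev -
      (c0 * E.κ (p 1 1).rev) • (E.e (p 1 1) + E.κ (p 1 1) • E.e (p 1 0))) := by
    rw [ρ_mul, u1, map_add, map_smul, u1, u2]
  refine h.three g n⁻¹ fun M h1 h3 h4 => ?_
  rw [e1, M.mul_mem_cancel_left h1] at h3
  generalize hc : (l ^ 2 - 1) * c0 = c at h3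
  have cc : c ≠ 0 := hc ▸ mul_ne_zero l2 c1
  have tc : ∀ x ∈ M, E.T (E.ρ x (E.e (p 1 1))) 0 c ∈ M := fun x hx => by
    have := mul_mem (mul_mem hx h3) (inv_mem hx)
    rwa [T_conj (ad _ _), map_zero] at this
  have z0 : ∀ x y, E.B (E.ρ (n⁻¹ * x * n⁻¹⁻¹) (E.e (p 1 1))) y =
      f (p 1 1) * E.B (E.ρ x (E.e (p 1 0).rev)) (E.ρ n y) := fun x y => by
    rw [inv_inv, ρ_mul, ρ_mul, B_ρ_inv, n1]; simp
  have h5 : n⁻¹ * (u * u) * n⁻¹⁻¹ ∈ M := by
    convert mul_mem h4 h4 using 1; group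
  have z1 : E.B (E.ρ (n⁻¹ * (u * u) * n⁻¹⁻¹) (E.e (p 1 1))) (E.e (p 1 1)) = -(c0 * C) := by
    rw [z0, n1, u3, hC]
    simp [hσ, E.B_in i01, B_e_rev, B_e_e]; ring
  have full := h.full le_rfl h1 one_ne_zero (hΛ c) cc (by rwa [one_smul])
    (E.ρ_Λ _ (E.e_Λ _)) (tc _ h5) (by
      rw [z0, n0, u3]
      simp [hσ, E.B_in i01, B_rev_e, B_e_e, f0, f1]
      linear_combination E.κ (p 1 0).rev * E.κ (p 1 1).rev * h2)
    (by rw [z1]; simp [c1, C0]) fun A hA _ => by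
      rw [one_smul, E.B_swap _ (E.e (p 1 1)), z1] at hA
      refine spans_sp hσ hε (spans_sq hμ) ?_ A hA
      have : μ = c0 * c0 * ((l ^ 2 - 1) * C) := by rw [← e0]; field_simp
      rw [this, ← hc]; ring
  have a1 : ∀ r, ∃ x ∈ M, E.ρ x (E.e (p 1 0)) = E.e (p 1 0) ∧
      E.ρ x (E.e (p 1 1)) = E.e (p 1 1) + r • E.e (p 1 0) := fun r => by
    obtain ⟨c, h6, h7⟩ := full ((r / E.κ (p 1 1)) • E.e (p 1 1).rev) (by simp [E.B_in i01])
    refine ⟨_, h7, ?_, ?_⟩ <;> rw [ρ_T h6] <;> simp [E.B_in i01, B_e_e, B_e_rev, hσ, k1]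
  obtain ⟨c', h6⟩ : ∃ c', E.T (E.e (p 1 0)) 0 c' * E.T (E.e (p 1 1)) 0 c0 ∈ M := by
    obtain ⟨c', h6, h7⟩ := full ((1 : K) • E.e (p 1 1).rev) (by simp [E.B_in i01])
    have := mul_mem (inv_mem h7) h1
    rw [hu, E.xl_eq i01.rev, ← mul_assoc, T_inv h6, T_mul h6.neg (E.adm_xl i01.rev 1),
      neg_add_cancel] at this
    exact ⟨_, this⟩
  have a2 : ∀ k x, x * E.T (E.e (p 1 1)) 0 k ∈ M → (∀ y, E.ρ y (E.e (p 1 0)) = E.e (p 1 0) →
      y * x * y⁻¹ = x) → ∀ r, E.T (E.e (p 1 0)) ((E.ε * k * E.σ r) • E.e (p 1 1)) (r * E.σ r * k) ∈ M :=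
    fun k x h7 h8 r => by
      obtain ⟨y, hy, y0, y1⟩ := a1 r
      have := mul_mem (mul_mem hy h7) (inv_mem hy)
      rwa [show ∀ x z : G, y * (x * z) * y⁻¹ = y * x * y⁻¹ * (y * z * y⁻¹) from fun x z => by group,
        h8 y y0, T_conj (ad _ _), y1, map_zero,
        (T_add_smul (E.e_Λ _) (E.e_Λ _) (E.B_in i01).1 (hΛ k) r).2, ← mul_assoc,
        M.mul_mem_cancel_left h7] at this
  have c2 : c0 * (1 - c0 / c) ≠ 0 := mul_ne_zero c1 (by
    rw [← hc, sub_ne_zero, Ne, eq_div_iff (hc ▸ cc), one_mul, mul_eq_right₀ c1]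
    exact fun e => pow_ne_zero 2 l0 (by linear_combination e + h2))
  refine top_of_UU hg (full.uu fun c'' _ => (sq_sp hσ c2 (ZS E M (E.e_Λ _)) (fun r _ => ⟨hΛ _, ?_⟩) c'').2)
    (tc _ h4) ?_
  · have t1 := a2 c0 _ h6 (fun y hy => by rw [T_conj (ad _ _), hy, map_zero]) r
    have t2 := a2 c 1 (by rwa [one_mul]) (by simp) (c0 * r / c)
    have s1 := (T_add_smul (E.e_Λ _) (E.e_Λ _) (E.B_in i01).1 (hΛ c0) r).1
    have s2 := (T_add_smul (E.e_Λ _) (E.e_Λ _) (E.B_in i01).1 (hΛ c) (c0 * r / c)).1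
    have := mul_mem t1 (inv_mem t2)
    rw [T_inv s2, T_mul s1 s2.neg] at this
    convert this using 2
    · rw [hσ, hσ, ← sub_eq_add_neg, ← sub_smul, show E.ε * c0 * r - E.ε * c * (c0 * r / c) = 0 by
        field_simp; ring, zero_smul]
    · simp only [hσ, hε, map_neg, map_smul, LinearMap.neg_apply, LinearMap.smul_apply, map_smulₛₗ, B_e_e]
      field_simp; ring
  · have t1 : E.B (E.ρ (n⁻¹ * u * n⁻¹⁻¹) (E.e (p 1 1))) (E.e (p 1 0)) ≠ 0 := by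
      rw [z0, n0, u1]; simp [hσ, E.B_in i01, B_rev_e, f0, f1, k2, k3]
    have t2 := mt E.B_eq_zero_comm t1
    rw [ρ_T (adm0 (E.ρ_Λ _ (E.e_Λ _)) (hΛ c))]
    generalize E.ρ (n⁻¹ * u * n⁻¹⁻¹) (E.e (p 1 1)) = x at t1 t2
    simp [B_e_e, cc, t1, t2]

lemma exists_spans {k : Type*} [Field k] [Finite k] {a : k} (ha : a ≠ 0) :
    ∃ s : k, s ≠ 0 ∧ Spans (s ^ 2 * a) := by
  obtain ⟨μ, μ0, hμ⟩ := exists_prim k
  obtain ⟨i, rfl⟩ := hμ a ha
  obtain ⟨j, rfl | rfl⟩ := Nat.even_or_odd' i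
  · refine ⟨μ / μ ^ j, by simp [μ0], ?_⟩
    rw [show (μ / μ ^ j) ^ 2 * μ ^ (2 * j) = μ ^ 2 by field_simp; ring]
    exact spans_sq hμ
  · refine ⟨(μ ^ j)⁻¹, by simp [μ0], ?_⟩
    rw [show (μ ^ j)⁻¹ ^ 2 * μ ^ (2 * j + 1) = μ by field_simp; ring]
    exact spans_of_gen hμ

lemma Reg.exists_trace {u : G} {b : ℕ → V} (h : Reg E u b (2 * m + 3)) (hm : 1 ≤ m) (hε : E.ε = 1)
    (h0 : b (m + 1) ∈ E.V0) (hB : E.B (b (m + 1)) (b (m + 1)) ≠ 0) {z : V} (hz : E.Λ z 0)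
    (z0 : E.B z (E.e (p m 0)) = 0) (z1 : E.B z (E.e (p m 1)) ≠ 0) :
    ∃ k, E.B (E.ρ (u ^ k) z) z + E.σ (E.B (E.ρ (u ^ k) z) z) ≠ 0 := by
  by_contra hn
  push Not at hn
  let S := AddSubgroup.closure (Set.range fun k : ℕ => E.ρ (u ^ k) z)
  have k0 : ∀ i j, E.B (E.ρ (u ^ (i + j)) z) (E.ρ (u ^ i) z) +
      E.B (E.ρ (u ^ i) z) (E.ρ (u ^ (i + j)) z) = 0 := fun i j => by
    rw [E.B_swap _ (E.ρ (u ^ i) z), pow_add, ρ_mul, E.ρ_B, hε, one_mul, hn]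
  have k1 : ∀ x ∈ S, ∀ y ∈ S, E.B x y + E.B y x = 0 := fun x hx y hy => by
    refine AddSubgroup.closure_induction₂ (p := fun x y _ _ => E.B x y + E.B y x = 0) ?_ (by simp)
      (by simp) (fun x y z _ _ _ h h' => ?_) (fun x y z _ _ _ h h' => ?_) (fun x y _ _ h => ?_)
      (fun x y _ _ h => ?_) hx hy
    · rintro _ _ ⟨i, rfl⟩ ⟨j, rfl⟩
      rcases le_total i j with h | h <;> obtain ⟨l, rfl⟩ := Nat.exists_eq_add_of_le h
      exacts [add_comm (G := K) _ _ ▸ k0 i l, k0 j l]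
    all_goals simp only [map_add, map_neg, LinearMap.add_apply, LinearMap.neg_apply]
    exacts [by linear_combination h + h', by linear_combination h + h', by linear_combination -h,
      by linear_combination -h]
  have k2 : ∀ x ∈ S, E.B x x = 0 := fun x hx => by
    refine AddSubgroup.closure_induction (p := fun x _ => E.B x x = 0) ?_ (by simp)
      (fun x y hx hy h h' => ?_) (fun x _ h => by simpa using h) hx
    · rintro _ ⟨i, rfl⟩
      exact (E.ρ_B _ _ _).trans (B_self hz)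
    · simp only [map_add, LinearMap.add_apply]
      linear_combination h + h' + k1 x hx y hy
  have k3 : ∀ x ∈ S, E.ρ u x ∈ S := fun x hx => by
    refine AddSubgroup.closure_induction (p := fun x _ => E.ρ u x ∈ S) ?_ (by simp)
      (fun x y _ _ h h' => by simpa using S.add_mem h h') (fun x _ h => by simpa using h) hx
    rintro _ ⟨i, rfl⟩
    exact AddSubgroup.subset_closure ⟨i + 1, by simp only [pow_succ', ρ_mul]⟩
  have k4 : ∀ j : ℕ, ((E.ρ u - 1) ^ j : Module.End K V) z ∈ S := fun j => by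
    induction j with
    | zero => exact AddSubgroup.subset_closure ⟨0, by simp⟩
    | succ j ih => rw [pow_succ', Module.End.mul_apply]; exact S.sub_mem (k3 _ ih) ih
  obtain ⟨c, hc, h1⟩ := h.chain.lead_pow (k := m + 1) m (by omega)
    (show m + 1 + m = 2 * m + 3 - 2 by omega ▸ h.lead_z hm z0 z1)
  have h2 := k2 _ (k4 m)
  have k5 : ∀ y ∈ Fg K b (m + 1), ∀ x, (∀ i ≤ m, E.B (E.e (p m i)) x = 0) → E.B y x = 0 :=
    fun y hy x hx => Fg_le (A := LinearMap.ker (E.B.flip x))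
      (fun j hj => by simpa [h.lo j (by omega)] using hx j (by omega)) hy
  generalize ((E.ρ u - 1) ^ m : Module.End K V) z = x at h1 h2
  obtain ⟨y, rfl⟩ : ∃ y, x = y + c • b (m + 1) := ⟨x - c • b (m + 1), by simp⟩
  rw [add_sub_cancel_right] at h1
  have e1 := k5 y h1 _ fun i _ => (B_V0 h0).2 _
  have e2 := k5 y h1 y fun i hi => E.B_eq_zero_comm (k5 y h1 _ fun j hj => by
    by_cases e : j = i
    · rw [e, B_e_e]
    · exact (E.B_in (in_p hj hi e)).1)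
  simp [e1, e2, E.B_eq_zero_comm e1, hc, hB] at h2

section unitary

open H11.U

variable [Fintype K] {q : ℕ} [IsSq K q]

theorem three_su (A : E.SNC q) (hg : E.Gen) (hm : 1 ≤ m) : Three E (2 * m + 3) := by
  have hB : E.B A.v0 A.v0 ≠ 0 := by rw [A.B_eq]; exact one_ne_zero
  obtain ⟨c0, hc⟩ := E.Λ_ex A.v0
  have pv : E.P A.v0 c0 := ⟨A.mem, hc⟩
  have c1 : c0 ≠ 0 := by rintro rfl; simp [pv.eq_zero] at hB
  obtain ⟨u, b, h, hb, -⟩ := exists_reg pv c1 A.V0_eq (δ := 1) (Or.inr ⟨rfl, hB⟩)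
  obtain ⟨g, β, z, β0, z0, z1, z2, k⟩ := h.third hg hm
  obtain ⟨j, hj⟩ := Reg.exists_trace h hm A.ε_eq (hb rfl ▸ A.mem) (hb rfl ▸ hB) z0 z1 z2
  obtain ⟨θ, θ0, hθ⟩ := exists_trace_zero K q
  obtain ⟨⟨s, hs⟩, s0, sp⟩ := exists_spans (k := fixedField K q)
    (a := ⟨θ * θ * (β * cj q β), by simp [mem_fixedField, hθ, cj_cj, mul_comm]⟩)
    (fun e => by simpa [θ0, β0] using congrArg Subtype.val e)
  have s1 : s ≠ 0 := fun e => s0 (Subtype.ext e)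
  have hs' := mem_fixedField.1 hs
  have c2 : cj q (s * θ) = -(s * θ) := by simp [hs', hθ]
  have c3 : E.Λ 0 (s * θ) := A.Λ0.2 (A.σ_eq _ ▸ c2)
  obtain ⟨a, ha⟩ := exists_sub_cj c2
  obtain ⟨g', e⟩ := h.second (c := s * θ) hm ⟨a, by rwa [A.ε_eq, one_mul, A.σ_eq]⟩
  refine h.three g' g fun M h1 h3 h4 => k _ c3 (mul_ne_zero s1 θ0) (fun S hA hA' a ha a0 => ?_)
    (fun S hA c' hc' => ?_) M h1 (by rwa [e, M.mul_mem_cancel_right h1] at h3) h4
  · let S' : AddSubgroup (fixedField K q) :=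
      { carrier := {t | ∀ a ∈ S, (t : K) * a ∈ S}
        add_mem' := fun h h' a ha => by simpa [add_mul] using S.add_mem (h a ha) (h' a ha)
        zero_mem' := fun a _ => by simp
        neg_mem' := fun h a ha => by simpa using h a ha }
    have k1 : ∀ t, cj q t = t → ∀ a ∈ S, t * a ∈ S := fun t ht =>
      sp.all S' (fun t ht a ha => by
        convert hA _ (ht a ha) using 1
        simp only [A.ε_eq, A.σ_eq, Subfield.coe_mul, SubmonoidClass.coe_pow]; ring)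
        (c := 1) (fun a ha => by simpa using ha) one_ne_zero ⟨t, ht⟩
    refine eq_top_iff.2 fun x _ => ?_
    obtain ⟨r, r', e1, e2, e3⟩ := exists_fixed_comb (q := q) (a := 1)
      (b := s * θ * E.B (E.ρ (u ^ j) z) z) (fun e => hj (mul_left_cancel₀ (mul_ne_zero s1 θ0) (by
        rw [map_mul, c2, map_one] at e
        rw [A.σ_eq]; linear_combination -e))) (x / a)
    convert S.add_mem (k1 r e1 a ha) (k1 r' e2 _ (hA' j a ha)) using 1
    rw [← div_mul_cancel₀ x a0, e3]; ring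
  · by_cases e : c' = 0
    · rw [e]; exact S.zero_mem
    obtain ⟨l, hl⟩ := exists_norm_eq (q := q) (c := c' / (s * θ)) (by
      rw [map_div₀, c2, ← A.σ_eq, A.Λ0.1 hc', neg_div_neg_eq])
    have := hA l (by rintro rfl; simp [e, s1, θ0, eq_comm (a := (0 : K))] at hl)
    rwa [A.σ_eq, hl, div_mul_cancel₀ _ (mul_ne_zero s1 θ0)] at this

end unitary

lemma mat_reg {n F : Type*} [Fintype n] [DecidableEq n] [Field F] (A : Matrix n n F) {d : ℕ}
    (h1 : IsNilpotent (mat n F A - 1)) (h2 : (mat n F A - 1) ^ d ≠ 0) :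
    IsNilpotent (A - 1) ∧ (A - 1) ^ d ≠ 0 := by
  have e : ∀ k, Matrix.toLinAlgEquiv' ((A - 1) ^ k) = (mat n F A - 1) ^ k := fun k => by
    rw [map_pow, map_sub, map_one]; rfl
  obtain ⟨k, hk⟩ := h1
  exact ⟨⟨k, Matrix.toLinAlgEquiv'.injective (by rw [e, hk, map_zero])⟩,
    fun h => h2 (by rw [← e, h, map_zero])⟩

end H37.GenCl
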