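import Mathlib
import Cfsg.Agent.Base
import Cfsg.Agent.Lib.Lang.RegU

/-! The three-dimensional unitary group is generated by two conjugate regular unipotent elements. -/

set_option autoImplicit false

namespace H37.U3

open H63.St H63.St.Eich H37.GenCl H11.U

variable {K V G : Type*} [Field K] [AddCommGroup V] [Module K V] [Group G] [Fintype K] {q : ℕ}
  [IsSq K q] {E : Eich 0 K V G} (A : E.SNC q) {M : Subgroup G}

variable (E) in
/-- The second isotropic vector. -/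
noncomputable def f : V := (E.κ (p 0 0).rev)⁻¹ • E.e (p 0 0).rev

/-- Coordinates. -/
noncomputable def X (a s b : K) : V := a • E.e (p 0 0) + s • A.v0 + b • f E

/-- Upper unipotent elements. -/
noncomputable def te (v c : K) : G := E.T (E.e (p 0 0)) (v • A.v0) c

/-- Lower unipotent elements. -/
noncomputable def tf (w d : K) : G := E.T (f E) (w • A.v0) d

lemma B_X (a s b a' s' b' : K) : E.B (X A a s b) (X A a' s' b') =
    a * E.σ b' + s * E.σ s' + b * E.σ a' := by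
  have k1 := E.κ_ne (p 0 0)
  have k2 := E.κ_ne (p 0 0).rev
  simp only [X, f, map_add, map_smulₛₗ, LinearMap.add_apply, LinearMap.smul_apply, B_e_e, B_e_rev,
    B_rev_e, A.B_eq, (B_V0 A.mem).1, (B_V0 A.mem).2, RingHom.id_apply, smul_eq_mul, map_inv₀,
    σ_κ_rev, A.ε_eq]
  field_simp; ring

lemma exists_X (x : V) : ∃ a s b, x = X A a s b := by
  obtain ⟨t, ht⟩ := A.V0_eq _ (E.sub_mem_V0 x)
  have k2 := E.κ_ne (p 0 0).rev
  refine ⟨E.B x (E.e (p 0 0).rev) / E.κ (p 0 0), t, E.B x (E.e (p 0 0)), ?_⟩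
  rw [X, ht, Fin.sum_univ_two, f]
  change x = _ • E.e (p 0 0) + (x - ((E.B x (E.e (p 0 0).rev) / E.κ (p 0 0)) • E.e (p 0 0) +
    (E.B x (E.e (p 0 0)) / E.κ (p 0 0).rev) • E.e (p 0 0).rev)) + _
  match_scalars <;> field_simp <;> ring

lemma e_eq : E.e (p 0 0) = X A 1 0 0 := by simp [X]

lemma v_eq (s : K) : s • A.v0 = X A 0 s 0 := by simp [X]

lemma f_eq : f E = X A 0 0 1 := by simp [X]

lemma adm_e {v c : K} (h : v * E.σ v = E.σ c + c) : E.Adm (E.e (p 0 0)) (v • A.v0) c := (A.P h).adm _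

lemma adm_f {v c : K} (h : v * E.σ v = E.σ c + c) : E.Adm (f E) (v • A.v0) c :=
  ⟨Λ_smul0 (E.e_Λ _) _, (A.P h).2, by simp [f, (B_V0 A.mem).2]⟩

lemma ρ_te {v c : K} (h : v * E.σ v = E.σ c + c) (a s b : K) :
    E.ρ (te A v c) (X A a s b) = X A (a + s * E.σ v - c * b) (s - b * v) b := by
  rw [te, ρ_T (adm_e A h), v_eq, e_eq A, B_X, B_X, A.ε_eq]
  simp only [X, map_zero, map_one]
  module

lemma ρ_tf {w d : K} (h : w * E.σ w = E.σ d + d) (a s b : K) :
    E.ρ (tf A w d) (X A a s b) = X A a (s - a * w) (b + s * E.σ w - d * a) := by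
  rw [tf, ρ_T (adm_f A h), v_eq, f_eq A, B_X, B_X, A.ε_eq]
  simp only [X, map_zero, map_one]
  module

include A in
lemma T_shift {y x : V} {c : K} (h : E.Adm y x c) (α : K) :
    E.Adm y (x + α • y) (c - α + E.σ α) ∧ E.T y (x + α • y) (c - α + E.σ α) = E.T y x c := by
  have h1 : E.Adm y (x + α • y) (c - α + E.σ α) :=
    ⟨h.1, Λ_congr (Λ_add0 (E.Λ_add h.2.1 (Λ_smul0 h.1 α)) (E.Λ_min (-α))) rfl
      (by simp [h.2.2, A.ε_eq]; ring), by simp [h.2.2, B_self h.1]⟩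
  refine ⟨h1, E.ext fun z => ?_⟩
  simp only [ρ_T h1, ρ_T h, map_add, map_smulₛₗ, smul_eq_mul, A.ε_eq]
  module

lemma top_of_word (hg : E.Gen) {v c w d : K} (h1 : v * E.σ v = E.σ c + c) (v0 : v ≠ 0)
    (h2 : w * E.σ w = E.σ d + d) (d0 : d ≠ 0) (m1 : te A v c ∈ M) (m2 : tf A w d ∈ M) {g : G}
    (m3 : g ∈ M) {l a ν : K} (g1 : E.ρ g (X A 1 0 0) = X A l 0 0)
    (g2 : E.ρ g (X A 0 1 0) = X A a ν 0) (hs : Spans (E.σ l * ν)) : M = ⊤ := by
  have hB : E.B A.v0 A.v0 ≠ 0 := by rw [A.B_eq]; exact one_ne_zero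
  have k : ∀ {t α c}, E.Adm (E.e (p 0 0)) (t • A.v0 + α • E.e (p 0 0)) c →
      E.P (t • A.v0) (c + α - E.σ α) ∧ E.T (E.e (p 0 0)) (t • A.v0 + α • E.e (p 0 0)) c =
        E.T (E.e (p 0 0)) (t • A.v0) (c + α - E.σ α) := fun {t α c} h => by
    obtain ⟨h3, h4⟩ := T_shift A h (-α)
    rw [neg_smul, add_neg_cancel_right, sub_neg_eq_add, map_neg, ← sub_eq_add_neg] at h3 h4
    exact ⟨⟨E.V0.smul_mem _ A.mem, h3.2.1⟩, h4.symm⟩
  let S : AddSubgroup K :=
    { carrier := {t | W E M (p 0 0) (t • A.v0)}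
      add_mem' := fun h h' => by simpa [add_smul] using W.add h h'
      zero_mem' := ⟨0, by simpa using P.zero E.Λ_zero, by simp [T_zero (E.e_Λ _)]⟩
      neg_mem' := fun {t} ⟨c, h, h'⟩ => ⟨_, neg_smul t A.v0 ▸ h.neg, by
        rw [neg_smul, ← T_inv (h.adm _)]; exact inv_mem h'⟩ }
  have hS := S_of_W hB A.V0_eq (snc_min A) (M := M) (a := p 0 0) fun t =>
    hs.all S (fun t ⟨c, h, h'⟩ => by
      have h3 := (h.adm (p 0 0)).map g
      have h4 := mul_mem (mul_mem m3 h') (inv_mem m3)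
      have e1 : E.ρ g (E.e (p 0 0)) = l • E.e (p 0 0) := by rw [e_eq A, g1]; simp [X]
      have e2 : E.σ l • E.ρ g (t • A.v0) =
          (E.σ l * ν * t) • A.v0 + (E.σ l * t * a) • E.e (p 0 0) := by
        rw [map_smul, ← one_smul K A.v0, v_eq, g2]; simp only [X]; module
      have h5 : E.Adm (E.e (p 0 0)) (E.ρ g (t • A.v0)) c := ⟨E.e_Λ _, h3.2.1, by
        rw [map_smul, ← one_smul K A.v0, v_eq, g2, e_eq A]; simp [B_X]⟩
      rw [T_conj (h.adm _), e1, T_smul h5, e2] at h4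
      have h6 : E.Adm (E.e (p 0 0)) (E.σ l • E.ρ g (t • A.v0)) (l * E.σ l * c) :=
        ⟨h5.1, Λ_congr (E.Λ_smul _ h5.2.1) rfl (by simp [mul_comm]),
          by rw [map_smulₛₗ, h5.2.2, smul_zero]⟩
      rw [e2] at h6
      exact ⟨_, (k h6).1, (k h6).2 ▸ h4⟩) ⟨c, A.P h1, m1⟩ v0 t
  refine top_of_UU hg (fun x c h => ?_) m2 ?_
  · obtain ⟨a, s, b, rfl⟩ := exists_X A x
    have h3 := h.2.2
    rw [e_eq A, B_X] at h3
    obtain rfl : b = 0 := by simpa using h3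
    rw [show X A a s 0 = s • A.v0 + a • E.e (p 0 0) by simp [X, add_comm]] at h ⊢
    exact (k h).2 ▸ hS ((k h).1.mem _)
  · rw [e_eq A, ρ_tf A h2, B_X]; simpa using d0

lemma exists_conj {v c w d c0 : K} (h1 : v * E.σ v = E.σ c + c) (v0 : v ≠ 0)
    (h2 : w * E.σ w = E.σ d + d) (h0 : c0 ≠ 0) (e : E.σ c0 * v = c0 ^ 2 * w) :
    ∃ g : G, g * te A v c * g⁻¹ = tf A w d := by
  have k2 := E.κ_ne (p 0 0).rev
  have h0' := E.σ_ne h0
  have e' : c0 * E.σ v = E.σ c0 ^ 2 * E.σ w := by simpa using congrArg E.σ e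
  have h3 : v * E.σ v = E.σ (c0 * E.σ c0 * d) + c0 * E.σ c0 * d := by
    refine mul_left_cancel₀ (mul_ne_zero h0 h0') ?_
    simp only [map_mul, σ_σ]
    linear_combination c0 * E.σ v * e + c0 ^ 2 * w * e' + (c0 * E.σ c0) ^ 2 * h2
  obtain ⟨s, hs⟩ := snc_min A (c0 * E.σ c0 * d - c) (Λ_sub (A.P h3).2 (A.P h1).2)
  obtain ⟨c1, hc1⟩ := E.Λ_ex (E.σ (s / v) • A.v0)
  have h4 : E.σ (s / v) * E.σ (E.σ (s / v)) = E.σ c1 + c1 := by
    rw [← A.B_smul, (A.Λ_iff _ _).1 hc1]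
  have e1 : te A (E.σ (s / v)) c1 * te A v c * (te A (E.σ (s / v)) c1)⁻¹ =
      te A v (c0 * E.σ c0 * d) := by
    rw [mul_inv_eq_iff_eq_mul]
    refine E.ext fun x => ?_
    obtain ⟨a, t, b, rfl⟩ := exists_X A x
    simp only [ρ_mul, ρ_te A h1, ρ_te A h3, ρ_te A h4, σ_σ]
    rw [A.ε_eq] at hs
    have := E.σ_ne v0
    congr 1
    · rw [eq_add_of_sub_eq hs, map_div₀]; field_simp; ring
    · ring
  obtain ⟨t, ht⟩ := exists_norm_eq (q := q) (cj_trace c0)
  have h5 : t * E.σ t = E.σ c0 + c0 := by rw [A.σ_eq, A.σ_eq, ht, add_comm]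
  have h6 : E.ρ (E.mS (p 0 0) (t • A.v0) c0) (E.e (p 0 0)) = (-(E.σ c0)⁻¹) • f E := by
    rw [(A.P h5).mono_mS h0, VC.τp_apply, VC.τ_left, f, fS, if_pos rfl, A.ε_eq]
    match_scalars; field_simp
  have h7 : E.ρ (E.mS (p 0 0) (t • A.v0) c0) (v • A.v0) = (-(E.σ c0 / c0 * v)) • A.v0 := by
    rw [(A.P h5).ρ_mS h0 _ (by simp [(B_V0 A.mem).1]) (by simp [(B_V0 A.mem).1]), A.B_smul, A.ε_eq]
    match_scalars; field_simp; linear_combination -h5
  refine ⟨E.mS (p 0 0) (t • A.v0) c0 * te A (E.σ (s / v)) c1, ?_⟩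
  have h8 := (adm_e A h3).map (E.mS (p 0 0) (t • A.v0) c0)
  rw [h7] at h8
  rw [mul_inv_rev, show ∀ a b c : G, a * b * c * (b⁻¹ * a⁻¹) = a * (b * c * b⁻¹) * a⁻¹ from
    fun a b c => by group, e1, te, T_conj (adm_e A h3), h6, h7,
    T_smul ⟨(adm_f A h2).1, h8.2.1, by simp [f, (B_V0 A.mem).2]⟩, tf, smul_smul]
  simp only [map_neg, map_inv₀, σ_σ]
  congr 2
  · field_simp; linear_combination e
  · field_simp

variable (E) in
/-- Generation by two conjugate regular unipotent elements. -/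
def Two : Prop := ∃ u g : G, IsNilpotent (E.ρ u - 1) ∧ (E.ρ u - 1) ^ 2 ≠ 0 ∧
  Subgroup.closure {u, g * u * g⁻¹} = ⊤

lemma two_of (hg : E.Gen) {v c w d c0 : K} (h1 : v * E.σ v = E.σ c + c) (v0 : v ≠ 0)
    (h2 : w * E.σ w = E.σ d + d) (d0 : d ≠ 0) (h0 : c0 ≠ 0) (e : E.σ c0 * v = c0 ^ 2 * w)
    {g : G} (hM : ∀ M : Subgroup G, te A v c ∈ M → tf A w d ∈ M → g ∈ M) {l a ν : K}
    (g1 : E.ρ g (X A 1 0 0) = X A l 0 0) (g2 : E.ρ g (X A 0 1 0) = X A a ν 0)
    (hs : Spans (E.σ l * ν)) : Two E := by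
  obtain ⟨x, hx⟩ := exists_conj A h1 v0 h2 h0 e
  have k : ∀ a s b, (E.ρ (te A v c) - 1) (X A a s b) = X A (s * E.σ v - c * b) (-(b * v)) 0 :=
    fun a s b => by
      rw [LinearMap.sub_apply, ρ_te A h1]; simp only [X, Module.End.one_apply]; module
  refine ⟨te A v c, x, ⟨3, LinearMap.ext fun y => ?_⟩, fun h => ?_, ?_⟩
  · obtain ⟨a, s, b, rfl⟩ := exists_X A y
    simp only [pow_succ, pow_zero, one_mul, Module.End.mul_apply, k]
    simp [X]
  · have := congrArg (fun φ : Module.End K V => E.B (φ (X A 0 0 1)) (X A 0 0 1)) h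
    simp [sq, k, B_X, v0] at this
  · have m1 : te A v c ∈ Subgroup.closure {te A v c, x * te A v c * x⁻¹} :=
      Subgroup.subset_closure (by simp)
    have m2 : tf A w d ∈ Subgroup.closure {te A v c, x * te A v c * x⁻¹} :=
      Subgroup.subset_closure (by simp [hx])
    exact top_of_word A hg h1 v0 h2 d0 m1 m2 (hM _ m1 m2) g1 g2 hs

include A in
lemma two_gen (hg : E.Gen) {d : K} (hd : E.σ d + d ≠ 0) (hs : Spans ((E.σ d / d) ^ 3)) : Two E := by
  have d0 : d ≠ 0 := by rintro rfl; simp at hd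
  have d1 := E.σ_ne d0
  obtain ⟨w, hw⟩ := H11.U.exists_norm_eq (q := q) (cj_trace d)
  have h2 : w * E.σ w = E.σ d + d := by rw [A.σ_eq, A.σ_eq, hw, add_comm]
  have w0 : w ≠ 0 := by rintro rfl; simp [← h2] at hd
  have h3 : E.σ w = (E.σ d + d) / w := by rw [← h2]; field_simp
  have h1 : (E.σ d + d) / (d * E.σ d) * w * E.σ ((E.σ d + d) / (d * E.σ d) * w) =
      E.σ ((2 * (d / E.σ d) + 1 + E.σ d / d) / d) + (2 * (d / E.σ d) + 1 + E.σ d / d) / d := by
    simp only [map_mul, map_div₀, map_add, σ_σ, map_ofNat, map_one, h3]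
    field_simp; ring
  refine two_of A hg h1 (by simp [*]) h2 d0 (c0 := (E.σ d + d) / (d * E.σ d)) (by simp [*])
    (by simp only [map_mul, map_div₀, map_add, σ_σ]; ring)
    (fun M m1 m2 => mul_mem m2 (mul_mem m1 m2)) (l := d / E.σ d) (ν := (E.σ d / d) ^ 2)
    (a := E.σ ((E.σ d + d) / (d * E.σ d) * w) - (2 * (d / E.σ d) + 1 + E.σ d / d) / d * E.σ w) ?_ ?_
    (by convert hs using 1; simp only [map_div₀, σ_σ]; ring)
  all_goals
    simp only [ρ_mul, ρ_te A h1, ρ_tf A h2]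
    simp only [map_mul, map_div₀, map_add, σ_σ, h3]
    congr 1 <;> field_simp <;> ring

lemma root8 (h : Fintype.card K = 64) [CharP K 2] : ∃ g : K, g ^ 6 + g + 1 = 0 := by
  obtain ⟨μ, μ0, hμ⟩ := exists_prim K
  have h1 := FiniteField.pow_card_sub_one_eq_one μ μ0
  have a : μ ^ 21 ≠ 1 := fun e => by simpa [h] using prim_dvd μ0 hμ e
  have b : μ ^ 9 ≠ 1 := fun e => by simpa [h] using prim_dvd μ0 hμ e
  have a' : (μ ^ 21) ^ 3 = 1 := by rw [← pow_mul, ← h1, h]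
  have b' : (μ ^ 9) ^ 7 = 1 := by rw [← pow_mul, ← h1, h]
  generalize μ ^ 21 = ω at a a'
  generalize μ ^ 9 = θ at b b'
  have a2 : ω ^ 2 + ω + 1 = 0 := by grind
  have b2 : (θ ^ 3 + θ + 1) * (θ ^ 3 + θ ^ 2 + 1) = 0 := by grind
  rcases mul_eq_zero.1 b2 with e | e
  · exact ⟨1 + ω * θ, by grind⟩
  · exact ⟨1 + ω + ω * θ, by grind⟩

lemma two_eight [IsSq K 8] (A : E.SNC 8) (hg : E.Gen) : Two E := by
  have hK : Fintype.card K = 2 ^ 6 := IsSq.card_eq (q := 8)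
  have := charP_of_card_eq_prime_pow hK
  obtain ⟨g, h⟩ := root8 hK
  have hσ : E.σ g = g ^ 2 + g ^ 3 := by rw [A.σ_eq, cj_apply]; grind
  have h1 : (g + g ^ 4) * E.σ (g + g ^ 4) = E.σ (g ^ 4) + g ^ 4 := by
    simp only [map_add, map_pow, hσ]; grind
  have h2 : 1 * E.σ 1 = E.σ (g + g ^ 5) + (g + g ^ 5) := by
    simp only [map_add, map_pow, map_one, hσ]; grind
  refine two_of A hg h1 (by grind) h2 (by grind) (c0 := g ^ 5) (by grind)
    (by simp only [map_pow, hσ]; grind)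
    (fun M m1 m2 => mul_mem m2 (mul_mem m1 (mul_mem m1 (mul_mem m2 (mul_mem m1 m2))))) (l := g)
    (ν := g + g ^ 2) (a := 0) ?_ ?_ (spans_of_order (by rw [hσ]; grind) fun s s2 hs => ?_)
  rotate_left 2
  · rw [Nat.card_eq_fintype_card, hK] at hs
    have : s ≤ 8 := by nlinarith
    rw [hσ]
    interval_cases s <;> grind
  all_goals
    simp only [ρ_mul, ρ_te A h1, ρ_tf A h2]
    simp only [map_add, map_pow, map_one, hσ]
    congr 1 <;> grind

lemma two_five [IsSq K 5] (A : E.SNC 5) (hg : E.Gen) : Two E := by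
  have hK : Fintype.card K = 5 ^ 2 := IsSq.card_eq (q := 5)
  have : Fact (Nat.Prime 5) := ⟨by norm_num⟩
  have := charP_of_card_eq_prime_pow hK
  obtain ⟨g, h⟩ : ∃ g : K, g ^ 2 + g + 2 = 0 := by
    obtain ⟨θ, θ0, hθ⟩ := exists_trace_zero K 5
    rw [cj_apply] at hθ
    have : (θ ^ 2 - 2) * (θ ^ 2 - 3) = 0 := by grind
    rcases mul_eq_zero.1 this with e | e
    · exact ⟨θ + 2, by grind⟩
    · exact ⟨3 * θ + 2, by grind⟩
  have hσ : E.σ g = 4 + 4 * g := by rw [A.σ_eq, cj_apply]; grind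
  have h1 : (1 + 2 * g) * E.σ (1 + 2 * g) = E.σ (2 + 2 * g) + (2 + 2 * g) := by
    simp only [map_add, map_mul, map_one, map_ofNat, hσ]; grind
  have h2 : 1 * E.σ 1 = E.σ (2 + 3 * g) + (2 + 3 * g) := by
    simp only [map_add, map_mul, map_one, map_ofNat, hσ]; grind
  refine two_of A hg h1 (by grind) h2 (by grind) (c0 := g) (by grind) (by rw [hσ]; grind)
    (fun M m1 m2 => mul_mem m2 (mul_mem m1 (mul_mem m2 m2))) (l := 4 + 4 * g)
    (ν := 4 + 2 * g) (a := 4 * g) ?_ ?_ ?_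
  rotate_left 2
  · simp only [map_add, map_mul, map_ofNat, hσ]
    refine spans_of_order (by grind) fun s s2 hs => ?_
    rw [Nat.card_eq_fintype_card, hK] at hs
    have : s ≤ 5 := by nlinarith
    interval_cases s <;> grind
  all_goals
    simp only [ρ_mul, ρ_te A h1, ρ_tf A h2]
    simp only [map_add, map_mul, map_one, map_ofNat, hσ]
    congr 1 <;> grind

lemma arith {q s k : ℕ} (hq : 3 ≤ q) (h5 : q ≠ 5) (h8 : q ≠ 8) (s2 : 2 ≤ s) (hs : s ≤ q)
    (hk : q ^ 2 = s ^ k) (h : q + 1 ∣ 3 * (s - 1)) : False := by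
  obtain ⟨j, hj⟩ := h
  obtain ⟨t, rfl⟩ : ∃ t, s = t + 1 := ⟨s - 1, by omega⟩
  rw [Nat.add_sub_cancel] at hj
  have h1 : t + 1 ∣ q ^ 2 := hk ▸ dvd_pow_self _ (by rintro rfl; simp at hk; omega)
  have k : ∀ r, r.Prime → r ∣ q → r ∣ t + 1 := fun r hr h =>
    hr.dvd_of_dvd_pow (hk ▸ h.pow two_ne_zero)
  have j3 : j < 3 := by nlinarith
  interval_cases j
  · omega
  · have : t + 1 ∣ 16 := by
      have e : q ^ 2 + (t + 1) * 24 = (t + 1) * (9 * (t + 1)) + 16 := by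
        have : q + 4 = 3 * (t + 1) := by omega
        nlinarith
      exact (Nat.dvd_add_right (dvd_mul_right _ _)).1 (e ▸ h1.add (dvd_mul_right _ _))
    have h2 : t < 16 := Nat.le_of_dvd (by omega) this
    have a := k 5 (by norm_num)
    have b := k 11 (by norm_num)
    interval_cases t <;> omega
  · have : t + 1 ∣ 25 := by
      have e : 4 * q ^ 2 + (t + 1) * 30 = (t + 1) * (9 * (t + 1)) + 25 := by
        have : 2 * q + 5 = 3 * (t + 1) := by omega
        nlinarith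
      exact (Nat.dvd_add_right (dvd_mul_right _ _)).1 (e ▸ (h1.mul_left 4).add (dvd_mul_right _ _))
    have h2 : t < 25 := Nat.le_of_dvd (by omega) this
    have a := k 7 (by norm_num)
    interval_cases t <;> omega

include A in
theorem two (hg : E.Gen) (hq : q ≠ 2) : Two E := by
  by_cases h5 : q = 5
  · subst h5; exact two_five A hg
  by_cases h8 : q = 8
  · subst h8; exact two_eight A hg
  have h2 := two_le_q K q
  have hK : Nat.card K = q ^ 2 := Nat.card_eq_fintype_card.trans IsSq.card_eq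
  obtain ⟨μ, μ0, hμ⟩ := exists_prim K
  have e : E.σ μ / μ = μ ^ (q - 1) := by
    rw [A.σ_eq, cj_apply, div_eq_iff μ0, ← pow_succ, Nat.sub_add_cancel (by omega)]
  have k : ∀ j, (E.σ μ / μ) ^ j = 1 → q + 1 ∣ j := fun j hj => by
    have := prim_dvd μ0 hμ (by rwa [e, ← pow_mul] at hj)
    rw [hK, ← one_pow 2, Nat.sq_sub_sq, mul_comm] at this
    exact Nat.dvd_of_mul_dvd_mul_left (by omega) this
  refine two_gen A hg (d := μ) (fun h => ?_) (spans_of_subfield fun S hS => subfield_top S ?_)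
  · have := Nat.le_of_dvd two_pos (k 2 (by rw [eq_neg_of_add_eq_zero_left h]; field_simp))
    omega
  · by_contra h1
    classical
    have hc : Fintype.card K = Fintype.card S ^ Module.finrank S K := Module.card_eq_pow_finrank
    rw [← Nat.card_eq_fintype_card, ← Nat.card_eq_fintype_card, hK] at hc
    rw [hK, not_lt] at h1
    exact arith (by omega) h5 h8 Finite.one_lt_card (Nat.pow_le_pow_iff_left two_ne_zero |>.1 h1) hc
      (k _ (by rw [pow_mul]; exact pow_card_subfield S hS (by simp [μ0])))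

end H37.U3
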